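import Cfsg.Agent.Lib.ExtPrim.Main
import Cfsg.Agent.Lib.Transfer.Frobenius

/-!
# Extremely primitive groups of affine type

`H` acts on an elementary abelian group `V` irreducibly and is primitive on each of its orbits.
Given the odd order theorem, `H` is solvable or has a non-abelian simple normal subgroup with
trivial centralizer.
-/

set_option autoImplicit false

open MulAction
open Cfsg.Agent.Lib.ExtPrim.Core Cfsg.Agent.Lib.ExtPrim.Main

namespace Cfsg.Agent.Lib.ExtPrim.Affine

universe u v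

section sig

variable {H : Type u} [Group H] {V : Type v} [AddCommGroup V] [DistribMulAction H V]

/-- The norm of an element of finite order. -/
def sig (g : H) (r : ℕ) : V →+ V :=
  ∑ i ∈ Finset.range r, DistribMulAction.toAddMonoidHom V (g ^ i)

theorem sig_apply (g : H) (r : ℕ) (x : V) : sig g r x = ∑ i ∈ Finset.range r, g ^ i • x := by
  simp [sig, AddMonoidHom.finset_sum_apply]

theorem smul_sig {g : H} {r : ℕ} (hr : g ^ r = 1) (x : V) : g • sig g r x = sig g r x := by
  rw [sig_apply, Finset.smul_sum]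
  have h1 := Finset.sum_range_succ (fun i => g ^ i • x) r
  have h2 := Finset.sum_range_succ' (fun i => g ^ i • x) r
  rw [h1] at h2
  simp only [hr, one_smul, pow_zero] at h2
  have h3 := add_right_cancel h2
  rw [h3]
  apply Finset.sum_congr rfl
  intro i _
  rw [pow_succ', mul_smul]

theorem smul_sig_of_commute {g u : H} (h : u * g = g * u) (r : ℕ) (x : V) :
    u • sig g r x = sig g r (u • x) := by
  rw [sig_apply, sig_apply, Finset.smul_sum]
  apply Finset.sum_congr rfl
  intro i _
  rw [smul_smul, smul_smul]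
  congr 1
  exact (Commute.pow_right (show Commute u g from h) i).eq

theorem pow_smul_of_fixed {g : H} {x : V} (h : g • x = x) (i : ℕ) : g ^ i • x = x := by
  induction i with
  | zero => simp
  | succ n ih => rw [pow_succ, mul_smul, h, ih]

theorem sig_of_fixed {g : H} {x : V} (h : g • x = x) (r : ℕ) : sig g r x = r • x := by
  rw [sig_apply, Finset.sum_congr rfl (fun i _ => pow_smul_of_fixed h i)]
  simp

theorem odd_nsmul (two : ∀ x : V, x + x = 0) {r : ℕ} (hr : Odd r) (x : V) : r • x = x := by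
  obtain ⟨k, rfl⟩ := hr
  have h1 : (2 * k + 1) • x = k • (x + x) + x := by
    rw [nsmul_add, add_nsmul, two_mul, add_nsmul, one_nsmul]
  rw [h1, two x]
  simp

theorem odd_of_prime {r : ℕ} (hr : r.Prime) (hr2 : r ≠ 2) : Odd r := hr.odd_of_ne_two hr2

theorem sig_sig (two : ∀ x : V, x + x = 0) {g : H} {r : ℕ} (hr : g ^ r = 1) (hodd : Odd r) (x : V) :
    sig g r (sig g r x) = sig g r x := by
  rw [sig_of_fixed (smul_sig hr x), odd_nsmul two hodd]

/-- The element `x + σ x` has norm zero. -/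
theorem sig_add_sig (two : ∀ x : V, x + x = 0) {g : H} {r : ℕ} (hr : g ^ r = 1) (hodd : Odd r) (x : V) :
    sig g r (x + sig g r x) = 0 := by
  rw [map_add, sig_sig two hr hodd, two]

theorem sum_pow_mul_eq {a : H} {r i : ℕ} (ha : a ^ r = 1) (hr : r.Prime) (hi0 : 0 < i) (hir : i < r)
    (y : V) : ∑ j ∈ Finset.range r, a ^ (j * i) • y = sig a r y := by
  rw [sig_apply]
  have hrpos := hr.pos
  have hco : Nat.Coprime r i := Nat.coprime_of_lt_prime (Nat.pos_iff_ne_zero.mp hi0) hir hr
  have hinj : Set.InjOn (fun j => (j * i) % r) (Finset.range r : Set ℕ) := by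
    intro j hj k hk hjk
    have h1 : j * i ≡ k * i [MOD r] := hjk
    have h2 : j ≡ k [MOD r] := Nat.ModEq.cancel_right_of_coprime (by rwa [Nat.coprime_iff_gcd_eq_one] at hco) h1
    exact Nat.ModEq.eq_of_lt_of_lt h2 (Finset.mem_range.mp hj) (Finset.mem_range.mp hk)
  have hmaps : Set.MapsTo (fun j => (j * i) % r) (Finset.range r : Set ℕ) (Finset.range r : Set ℕ) := by
    intro j _
    exact Finset.mem_coe.mpr (Finset.mem_range.mpr (Nat.mod_lt _ hrpos))
  have hsurj : Set.SurjOn (fun j => (j * i) % r) (Finset.range r : Set ℕ) (Finset.range r : Set ℕ) :=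
    Finset.surjOn_of_injOn_of_card_le _ hmaps hinj le_rfl
  refine Finset.sum_nbij (fun j => (j * i) % r) hmaps hinj hsurj ?_
  intro j _
  rw [← pow_eq_pow_mod _ ha]

/-- The rank two identity. -/
theorem sum_sig_eq (two : ∀ x : V, x + x = 0) {a b : H} (hab : a * b = b * a) {r : ℕ} (hr : r.Prime)
    (hr2 : r ≠ 2) (ha : a ^ r = 1) (x : V) (hx : sig a r x = 0) :
    ∑ j ∈ Finset.range r, sig (a ^ j * b) r x = x := by
  have h1 : ∀ j i : ℕ, (a ^ j * b) ^ i • x = a ^ (j * i) • (b ^ i • x) := by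
    intro j i
    have hc : Commute (a ^ j) b := (show Commute a b from hab).pow_left j
    rw [hc.mul_pow, mul_smul, pow_mul]
  simp_rw [sig_apply, h1]
  rw [Finset.sum_comm]
  rw [Finset.sum_eq_single_of_mem 0 (Finset.mem_range.mpr hr.pos)]
  · simp [odd_nsmul two (odd_of_prime hr hr2)]
  · intro i hi hi0
    rw [sum_pow_mul_eq ha hr (Nat.pos_of_ne_zero hi0) (Finset.mem_range.mp hi)]
    rw [← smul_sig_of_commute ((show Commute a b from hab).pow_right i).symm.eq, hx, smul_zero]

theorem fixed_of_pow_fixed {g : H} {r j : ℕ} (hg : g ^ r = 1) (hr : r.Prime) (hj0 : 0 < j) (hjr : j < r)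
    {x : V} (h : g ^ j • x = x) : g • x = x := by
  have hco : Nat.Coprime j r := (Nat.coprime_of_lt_prime (Nat.pos_iff_ne_zero.mp hj0) hjr hr).symm
  obtain ⟨m, -, hm⟩ := Nat.exists_mul_mod_eq_one_of_coprime hco hr.one_lt
  have h1 : (g ^ j) ^ m • x = x := pow_smul_of_fixed h m
  rw [← pow_mul, pow_eq_pow_mod _ hg, hm, pow_one] at h1
  exact h1

end sig

section setup

variable (H : Type u) [Group H] (V : Type v) [AddCommGroup V] [DistribMulAction H V]

/-- The hypotheses on the action. -/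
structure Base : Prop where
  faith : ∀ h : H, (∀ v : V, h • v = v) → h = 1
  irr : ∀ A : AddSubgroup V, (∀ h : H, ∀ a ∈ A, h • a ∈ A) → A = ⊥ ∨ A = ⊤
  dich : ∀ (v : V) (f : V → (Subgroup H → Set V)),
    (∀ (h : H) (x y : V), f x = f y → f (h • x) = f (h • y)) →
    (∀ h : H, f (h • v) = f v → h • v = v) ∨ (∀ h : H, f (h • v) = f v)
  ft : ∀ T : Subgroup H, Odd (Nat.card T) → Group.IsSolvable T

end setup

section lemmas

variable {H : Type u} [Group H] {V : Type v} [AddCommGroup V] [DistribMulAction H V]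

namespace Base

/-- The orbit of a non-zero vector spans. -/
theorem span (S : Base H V) {v : V} (hv : v ≠ 0) (A : AddSubgroup V) (hA : ∀ h : H, h • v ∈ A) :
    A = ⊤ := by
  let B : AddSubgroup V := AddSubgroup.closure (Set.range fun h : H => h • v)
  have hinv : ∀ h : H, ∀ a ∈ B, h • a ∈ B := by
    intro h
    have : B ≤ B.comap (DistribMulAction.toAddMonoidHom V h) := by
      rw [AddSubgroup.closure_le]
      rintro _ ⟨k, rfl⟩
      apply AddSubgroup.subset_closure
      exact ⟨h * k, mul_smul _ _ _⟩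
    exact fun a ha => this ha
  have hB : B ≤ A := by
    rw [AddSubgroup.closure_le]
    rintro _ ⟨k, rfl⟩
    exact hA k
  rcases S.irr B hinv with h1 | h1
  · exfalso
    have : v ∈ B := AddSubgroup.subset_closure ⟨1, one_smul _ _⟩
    rw [h1, AddSubgroup.mem_bot] at this
    exact hv this
  · rw [h1] at hB
    exact top_le_iff.mp hB

/-- An element fixing the orbit of a non-zero vector is trivial. -/
theorem eq_one_of_fix_orbit (S : Base H V) {v : V} (hv : v ≠ 0) {a : H} (ha : ∀ h : H, a • (h • v) = h • v) :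
    a = 1 := by
  let A : AddSubgroup V :=
    { carrier := {x | a • x = x}
      add_mem' := by
        intro x y hx hy
        have hx' : a • x = x := hx
        have hy' : a • y = y := hy
        change a • (x + y) = x + y
        rw [smul_add, hx', hy']
      zero_mem' := smul_zero a
      neg_mem' := by
        intro x hx
        have hx' : a • x = x := hx
        change a • (-x) = -x
        rw [smul_neg, hx'] }
  have hA := S.span hv A ha
  apply S.faith
  intro x
  have : x ∈ A := by rw [hA]; trivial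
  exact this

/-- A non-trivial normal subgroup is transitive on each orbit. -/
theorem trans (S : Base H V) {N : Subgroup H} (hN : N.Normal) (hne : N ≠ ⊥) {v : V} (hv : v ≠ 0)
    (h : H) : ∃ n ∈ N, n • v = h • v := by
  let f : V → Subgroup H → Set V := fun x _ => {w | ∃ n ∈ N, n • x = w}
  have hsub : ∀ (h : H) (x y : V), f x = f y → f (h • x) ⊥ ⊆ f (h • y) ⊥ := by
    rintro h x y hxy w ⟨n, hn, rfl⟩
    have h1 : h⁻¹ • n • h • x ∈ f x ⊥ := by
      refine ⟨h⁻¹ * n * h, ?_, ?_⟩
      · have := hN.conj_mem n hn h⁻¹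
        simpa using this
      · rw [mul_smul, mul_smul]
    rw [hxy] at h1
    obtain ⟨n', hn', e⟩ := h1
    refine ⟨h * n' * h⁻¹, hN.conj_mem n' hn' h, ?_⟩
    rw [mul_smul, mul_smul, inv_smul_smul, e, smul_inv_smul]
  have hinv : ∀ (h : H) (x y : V), f x = f y → f (h • x) = f (h • y) := by
    intro h x y hxy
    funext A
    exact Set.Subset.antisymm (hsub h x y hxy) (hsub h y x hxy.symm)
  rcases S.dich v f hinv with h1 | h1
  · exfalso
    apply hne
    rw [Subgroup.eq_bot_iff_forall]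
    intro n hn
    apply S.eq_one_of_fix_orbit hv
    intro k
    have h2 : (k⁻¹ * n * k) • v = v := by
      apply h1
      funext A
      ext w
      constructor
      · rintro ⟨m, hm, rfl⟩
        refine ⟨m * (k⁻¹ * n * k), N.mul_mem hm ?_, mul_smul _ _ _⟩
        have := hN.conj_mem n hn k⁻¹
        simpa using this
      · rintro ⟨m, hm, rfl⟩
        refine ⟨m * (k⁻¹ * n * k)⁻¹, N.mul_mem hm (N.inv_mem ?_), ?_⟩
        · have := hN.conj_mem n hn k⁻¹
          simpa using this
        · rw [mul_smul, inv_smul_smul]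
    calc n • k • v = k • (k⁻¹ * n * k) • v := by
          rw [mul_smul, mul_smul, smul_inv_smul]
      _ = k • v := by rw [h2]
  · have h2 : h • v ∈ f (h • v) ⊥ := ⟨1, N.one_mem, one_smul _ _⟩
    rw [h1 h] at h2
    exact h2

/-- An element commuting with a group transitive on an orbit fixes all or nothing. -/
theorem eq_one_of_comm (S : Base H V) {B : Subgroup H} {v : V} (hv : v ≠ 0)
    (hB : ∀ h : H, ∃ b ∈ B, b • v = h • v) {a : H} (hab : ∀ b ∈ B, a * b = b * a) (ha : a • v = v) :
    a = 1 := by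
  apply S.eq_one_of_fix_orbit hv
  intro h
  obtain ⟨b, hb, e⟩ := hB h
  rw [← e, ← mul_smul, hab b hb, mul_smul, ha]

/-- A non-trivial subgroup normalized by a non-trivial normal subgroup fixes no non-zero vector. -/
theorem no_fixed (S : Base H V) {N T : Subgroup H} (hN : N.Normal) (hne : N ≠ ⊥) (hT : T ≠ ⊥)
    (hnor : N ≤ nz T) {z : V} (hz : z ≠ 0) (hfix : ∀ t ∈ T, t • z = z) : False := by
  apply hT
  rw [Subgroup.eq_bot_iff_forall]
  intro t ht
  apply S.eq_one_of_fix_orbit hz
  intro h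
  obtain ⟨n, hn, e⟩ := S.trans hN hne hz h
  rw [← e]
  have h1 : n⁻¹ * t * n ∈ T := by
    have h2 := nor_mem (hnor (N.inv_mem hn)) ht
    simpa using h2
  rw [← mul_smul]
  have e2 : t * n = n * (n⁻¹ * t * n) := by group
  rw [e2, mul_smul, hfix _ h1]

end Base

section family

variable {T₁ : Subgroup H}

/-- The subgroup generated by the conjugates of `T₁` other than `T`. -/
def CC (T₁ T : Subgroup H) : Subgroup H := Subgroup.closure {a | ∃ g, cj g T₁ ≠ T ∧ a ∈ cj g T₁}

theorem le_CC {T : Subgroup H} {g : H} (h : cj g T₁ ≠ T) : cj g T₁ ≤ CC T₁ T :=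
  fun _ ha => Subgroup.subset_closure ⟨g, h, ha⟩

theorem CC_comm {M : Subgroup H} (hM : M.Normal) (hT : IsMinAdm M T₁) (g₀ : H) :
    ∀ c ∈ CC T₁ (cj g₀ T₁), ∀ t ∈ cj g₀ T₁, c * t = t * c := by
  have h1 : CC T₁ (cj g₀ T₁) ≤ Subgroup.centralizer (cj g₀ T₁ : Set H) := by
    rw [CC, Subgroup.closure_le]
    rintro a ⟨g, hne, ha⟩
    rw [SetLike.mem_coe, Subgroup.mem_centralizer_iff]
    intro t ht
    rcases eq_or_commute (hT.cj hM g) (hT.cj hM g₀) with h2 | ⟨_, h2⟩
    · exact absurd h2 hne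
    · exact (h2 a ha t ht).symm
  intro c hc t ht
  exact (Subgroup.mem_centralizer_iff.mp (h1 hc) t ht).symm

theorem cj_CC_le (T : Subgroup H) (h : H) : cj h (CC T₁ T) ≤ CC T₁ (cj h T) := by
  have h1 : CC T₁ T ≤ (CC T₁ (cj h T)).comap (MulAut.conj h).toMonoidHom := by
    rw [CC, Subgroup.closure_le]
    rintro a ⟨g, hne, ha⟩
    apply Subgroup.subset_closure
    refine ⟨h * g, ?_, ?_⟩
    · rw [cj_mul]
      intro e
      apply hne
      have := congrArg (cj h⁻¹) e
      rwa [cj_inv_cj, cj_inv_cj] at this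
    · rw [cj_mul]
      exact conj_mem_cj ha
  intro a ha
  rw [mem_cj] at ha
  have h2 : (MulAut.conj h).toMonoidHom (h⁻¹ * a * h) ∈ CC T₁ (cj h T) := h1 ha
  have e : (MulAut.conj h).toMonoidHom (h⁻¹ * a * h) = a := by
    simp [mul_assoc]
  rwa [e] at h2

theorem cj_CC (T : Subgroup H) (h : H) : cj h (CC T₁ T) = CC T₁ (cj h T) := by
  apply le_antisymm (cj_CC_le T h)
  have h1 := cj_CC_le (T₁ := T₁) (cj h T) h⁻¹
  rw [cj_inv_cj] at h1
  have h2 := cj_mono h h1
  rwa [cj_cj_inv] at h2

/-- The invariant map. -/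
def ff (T₁ : Subgroup H) (x : V) : Subgroup H → Set V :=
  fun A => {w | (∃ g, A = CC T₁ (cj g T₁)) ∧ ∃ a ∈ A, a • x = w}

theorem ff_sub (h : H) (x y : V) (hxy : ff T₁ x = ff T₁ y) (A : Subgroup H) :
    ff T₁ (h • x) A ⊆ ff T₁ (h • y) A := by
  rintro w ⟨⟨g, rfl⟩, a, ha, rfl⟩
  have hA' : cj h⁻¹ (CC T₁ (cj g T₁)) = CC T₁ (cj (h⁻¹ * g) T₁) := by
    rw [cj_CC, cj_mul]
  have h1 : h⁻¹ • a • h • x ∈ ff T₁ x (cj h⁻¹ (CC T₁ (cj g T₁))) := by
    refine ⟨⟨h⁻¹ * g, hA'⟩, h⁻¹ * a * h⁻¹⁻¹, conj_mem_cj ha, ?_⟩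
    rw [inv_inv, mul_smul, mul_smul]
  rw [hxy] at h1
  obtain ⟨_, a', ha', e⟩ := h1
  rw [mem_cj, inv_inv] at ha'
  refine ⟨⟨g, rfl⟩, _, ha', ?_⟩
  rw [mul_smul, mul_smul, inv_smul_smul, e, smul_inv_smul]

theorem ff_inv (h : H) (x y : V) (hxy : ff T₁ x = ff T₁ y) : ff T₁ (h • x) = ff T₁ (h • y) := by
  funext A
  exact Set.Subset.antisymm (ff_sub h x y hxy A) (ff_sub h y x hxy.symm A)

/-- **The key dichotomy.** -/
theorem key (S : Base H V) {M : Subgroup H} (hM : M.Normal) (hT : IsMinAdm M T₁) {s s' : H} {v : V}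
    (hs : s ∈ T₁) (hs' : s' ∈ CC T₁ T₁) (hfix : (s * s') • v = v) :
    s • v = v ∨ ∀ h : H, ∃ c ∈ CC T₁ T₁, c • v = h • v := by
  have hT1 : cj (1 : H) T₁ = T₁ := cj_one T₁
  have hcomm : s' * s = s * s' := by
    have h1 := CC_comm hM hT (1 : H) s' (by rwa [hT1]) s (by rwa [hT1])
    exact h1
  have e1 : s • v = s'⁻¹ • v := by
    conv_rhs => rw [← hfix]
    rw [← hcomm, mul_smul, inv_smul_smul]
  rcases S.dich v (ff T₁) (ff_inv) with h1 | h1
  · left
    apply h1
    funext A
    ext w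
    constructor
    · rintro ⟨⟨g, rfl⟩, a, ha, e⟩
      refine ⟨⟨g, rfl⟩, ?_⟩
      by_cases hg : cj g T₁ = T₁
      · rw [hg] at ha ⊢
        rw [e1] at e
        refine ⟨a * s'⁻¹, Subgroup.mul_mem _ ha (Subgroup.inv_mem _ hs'), ?_⟩
        rw [mul_smul, e]
      · have hsA : s ∈ CC T₁ (cj g T₁) := by
          have : cj (1 : H) T₁ ≠ cj g T₁ := by
            rw [hT1]
            exact fun e => hg e.symm
          exact le_CC this (by rwa [hT1])
        exact ⟨a * s, Subgroup.mul_mem _ ha hsA, by rw [mul_smul, e]⟩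
    · rintro ⟨⟨g, rfl⟩, a, ha, e⟩
      refine ⟨⟨g, rfl⟩, ?_⟩
      by_cases hg : cj g T₁ = T₁
      · rw [hg] at ha ⊢
        refine ⟨a * s', Subgroup.mul_mem _ ha hs', ?_⟩
        rw [mul_smul, e1, smul_inv_smul, e]
      · have hsA : s ∈ CC T₁ (cj g T₁) := by
          have : cj (1 : H) T₁ ≠ cj g T₁ := by
            rw [hT1]
            exact fun e => hg e.symm
          exact le_CC this (by rwa [hT1])
        refine ⟨a * s⁻¹, Subgroup.mul_mem _ ha (Subgroup.inv_mem _ hsA), ?_⟩
        rw [mul_smul, inv_smul_smul, e]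
  · right
    intro h
    have h2 : h • v ∈ ff T₁ (h • v) (CC T₁ (cj 1 T₁)) :=
      ⟨⟨1, rfl⟩, 1, Subgroup.one_mem _, one_smul _ _⟩
    rw [h1 h] at h2
    obtain ⟨_, c, hc, e⟩ := h2
    rw [hT1] at hc
    exact ⟨c, hc, e⟩

end family

section step3

variable [Finite H] [Finite V]
variable {M T₁ : Subgroup H}

/-- A subgroup of a simple group fixing an invariant set, containing a non-identity element. -/
theorem fix_all_of_simple {T : Subgroup H} (hTs : IsSimpleGroup T) (A : Set V)
    (hA : ∀ t ∈ T, ∀ a ∈ A, t • a ∈ A) {g : H} (hg : g ∈ T) (hg1 : g ≠ 1) (hfix : ∀ a ∈ A, g • a = a) :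
    ∀ t ∈ T, ∀ a ∈ A, t • a = a := by
  let R : Subgroup T :=
    { carrier := {u | ∀ a ∈ A, (u : H) • a = a}
      mul_mem' := by
        intro u w hu hw a ha
        change ((u : H) * (w : H)) • a = a
        rw [mul_smul, hw a ha, hu a ha]
      one_mem' := by
        intro a _
        exact one_smul _ a
      inv_mem' := by
        intro u hu a ha
        change (u : H)⁻¹ • a = a
        rw [inv_smul_eq_iff, hu a ha] }
  have hRn : R.Normal := by
    constructor
    intro u hu w a ha
    change ((w : H) * (u : H) * (w : H)⁻¹) • a = a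
    rw [mul_smul, mul_smul, hu _ (hA _ (T.inv_mem w.2) a ha), smul_inv_smul]
  rcases hTs.eq_bot_or_eq_top_of_normal R hRn with h1 | h1
  · exfalso
    have h2 : (⟨g, hg⟩ : T) ∈ R := hfix
    rw [h1, Subgroup.mem_bot] at h2
    exact hg1 (congrArg Subtype.val h2)
  · intro t ht a ha
    have h2 : (⟨t, ht⟩ : T) ∈ R := by rw [h1]; trivial
    exact h2 a ha

/-- Fixed vectors for `2`-groups. -/
theorem exists_fixed_of_isPGroup (two : ∀ x : V, x + x = 0) [Nontrivial V] (U : Subgroup H)
    (hU : IsPGroup 2 U) : ∃ y : V, y ≠ 0 ∧ ∀ u ∈ U, u • y = y := by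
  haveI : Fact (Nat.Prime 2) := ⟨Nat.prime_two⟩
  obtain ⟨x, hx⟩ := exists_ne (0 : V)
  have h1 : addOrderOf x = 2 := addOrderOf_eq_prime (by rw [two_nsmul, two x]) hx
  have h2 : 2 ∣ Nat.card V := h1 ▸ addOrderOf_dvd_natCard x
  have h0 : (0 : V) ∈ fixedPoints U V := fun u => smul_zero u
  obtain ⟨b, hb, hne⟩ := hU.exists_fixed_point_of_prime_dvd_card_of_fixed_point V h2 h0
  exact ⟨b, fun e => hne e.symm, fun u hu => hb ⟨u, hu⟩⟩

/-- An element of odd prime order in `T₁` fixes no non-zero vector. -/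
theorem fpf_of_prime (S : Base H V) (two : ∀ x : V, x + x = 0)
    (hM : Cfsg.Agent.Lib.CharSimple.Forward.IsMinNormal M) (hT : IsMinAdm M T₁)
    {τ : H} (hτ : cj τ T₁ ≠ T₁) {g : H} (hgT : g ∈ T₁) (hg1 : g ≠ 1) {r : ℕ} (hr : r.Prime) (hr2 : r ≠ 2)
    (hgr : g ^ r = 1) {y : V} (hy0 : y ≠ 0) (hy : g • y = y) : False := by
  have hodd := odd_of_prime hr hr2
  let T₂ := cj τ T₁
  have hT₂ : IsMinAdm M T₂ := hT.cj hM.1 τ
  let g₂ := τ * g * τ⁻¹
  have hg₂T : g₂ ∈ T₂ := conj_mem_cj hgT
  have hg₂r : g₂ ^ r = 1 := by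
    change (τ * g * τ⁻¹) ^ r = 1
    rw [conj_pow, hgr]
    simp
  have hg₂1 : g₂ ≠ 1 := by
    intro e
    apply hg1
    have : g = τ⁻¹ * g₂ * τ := by
      change g = τ⁻¹ * (τ * g * τ⁻¹) * τ
      group
    rw [this, e]
    group
  have hT₂C : T₂ ≤ CC T₁ T₁ := le_CC hτ
  have hcomm : ∀ c ∈ CC T₁ T₁, c * g = g * c := by
    intro c hc
    have := CC_comm hM.1 hT (1 : H) c (by rwa [cj_one]) g (by rwa [cj_one])
    exact this
  have hgg₂ : g₂ * g = g * g₂ := hcomm g₂ (hT₂C hg₂T)
  -- the kernel of the norm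
  let A : AddSubgroup V := (sig g r).ker
  have hmemA : ∀ x, x ∈ A ↔ sig g r x = 0 := fun x => AddMonoidHom.mem_ker
  have hAinv : ∀ c, c * g = g * c → ∀ x ∈ A, c • x ∈ A := by
    intro c hc x hx
    rw [hmemA] at hx ⊢
    rw [← smul_sig_of_commute hc, hx, smul_zero]
  have hyA : y ∉ A := by
    rw [hmemA, sig_of_fixed hy, odd_nsmul two hodd]
    exact hy0
  -- a non-zero element of `A`
  obtain ⟨x₀, hx₀⟩ : ∃ x₀ : V, g • x₀ ≠ x₀ := by
    by_contra hcon
    push Not at hcon
    exact hg1 (S.faith g hcon)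
  have hx₁ : x₀ + sig g r x₀ ∈ A := by
    rw [hmemA]
    exact sig_add_sig two hgr hodd x₀
  have hx₁0 : x₀ + sig g r x₀ ≠ 0 := by
    intro e
    have e1 : x₀ = sig g r x₀ := by
      have := congrArg (· + sig g r x₀) e
      simp only [add_assoc, two, add_zero, zero_add] at this
      exact this
    apply hx₀
    rw [e1]
    rw [smul_sig hgr]
  -- `g₂` does not fix `A`
  obtain ⟨x', hx'A, hx'⟩ : ∃ x' ∈ A, g₂ • x' ≠ x' := by
    by_contra hcon
    push Not at hcon
    have hTsimple := isSimple hM hT₂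
    have hTA : ∀ t ∈ T₂, ∀ a ∈ (A : Set V), t • a ∈ (A : Set V) := by
      intro t ht a ha
      exact hAinv t (hcomm t (hT₂C ht)) a ha
    have h1 := fix_all_of_simple hTsimple (A : Set V) hTA hg₂T hg₂1 (fun a ha => hcon a ha)
    exact S.no_fixed hM.1 hM.2.1 hT₂.1.ne hT₂.1.nor hx₁0 (fun t ht => h1 t ht _ hx₁)
  let x := x' + sig g₂ r x'
  have hsig₂x : sig g₂ r x = 0 := sig_add_sig two hg₂r hodd x'
  have hx0 : x ≠ 0 := by
    intro e
    have e0 : x' + sig g₂ r x' = 0 := e
    have e1 : x' = sig g₂ r x' := by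
      have := congrArg (· + sig g₂ r x') e0
      simp only [add_assoc, two, add_zero, zero_add] at this
      exact this
    apply hx'
    rw [e1]
    rw [smul_sig hg₂r]
  have hpowA : ∀ c, c * g = g * c → ∀ n : ℕ, ∀ z ∈ A, c ^ n • z ∈ A := by
    intro c hc n z hz
    apply hAinv _ _ z hz
    exact (Commute.pow_left (show Commute c g from hc) n).eq
  have hsigA : ∀ c, c * g = g * c → ∀ (n : ℕ), ∀ z ∈ A, sig c n z ∈ A := by
    intro c hc n z hz
    rw [sig_apply]
    exact AddSubgroup.sum_mem _ (fun i _ => hpowA c hc i z hz)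
  have hxA : x ∈ A := A.add_mem hx'A (hsigA g₂ hgg₂ r x' hx'A)
  have hsigx : sig g r x = 0 := (hmemA x).mp hxA
  -- the rank two identity
  have hsum := sum_sig_eq two (a := g) (b := g₂) hgg₂.symm hr hr2 hgr x hsigx
  obtain ⟨j, hj, hv⟩ : ∃ j ∈ Finset.range r, sig (g ^ j * g₂) r x ≠ 0 := by
    by_contra hcon
    push Not at hcon
    rw [Finset.sum_eq_zero hcon] at hsum
    exact hx0 hsum.symm
  have hjr := Finset.mem_range.mp hj
  have hj0 : 0 < j := by
    rw [Nat.pos_iff_ne_zero]
    rintro rfl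
    apply hv
    simpa using hsig₂x
  set v := sig (g ^ j * g₂) r x with hvdef
  have hc₂ : Commute (g ^ j) g₂ := ((show Commute g g₂ from hgg₂.symm)).pow_left j
  have hpr : (g ^ j * g₂) ^ r = 1 := by
    rw [hc₂.mul_pow, ← pow_mul, mul_comm, pow_mul, hgr, one_pow, hg₂r, one_mul]
  have hvfix : (g ^ j * g₂) • v = v := smul_sig hpr x
  have hcomm' : (g ^ j * g₂) * g = g * (g ^ j * g₂) := by
    have h1 : Commute (g ^ j * g₂) g :=
      Commute.mul_left ((Commute.refl g).pow_left j) (show Commute g₂ g from hgg₂)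
    exact h1.eq
  have hvA : v ∈ A := hsigA _ hcomm' r x hxA
  rcases key S hM.1 hT (T₁.pow_mem hgT j) (hT₂C hg₂T) hvfix with h1 | h1
  · have h2 := fixed_of_pow_fixed hgr hr hj0 hjr h1
    have h3 := (hmemA v).mp hvA
    rw [sig_of_fixed h2, odd_nsmul two hodd] at h3
    exact hv h3
  · have hA := S.span hv A (fun h => by
      obtain ⟨c, hc, e⟩ := h1 h
      rw [← e]
      exact hAinv c (hcomm c hc) v hvA)
    apply hyA
    rw [hA]
    trivial

/-- An element of odd prime order in `T₁` does not normalize a non-trivial subgroup of `T₁` with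
a non-zero fixed vector. -/
theorem no_local (S : Base H V) (two : ∀ x : V, x + x = 0)
    (hM : Cfsg.Agent.Lib.CharSimple.Forward.IsMinNormal M) (hT : IsMinAdm M T₁)
    {τ : H} (hτ : cj τ T₁ ≠ T₁) {g : H} (hgT : g ∈ T₁) (hg1 : g ≠ 1) {r : ℕ} (hr : r.Prime) (hr2 : r ≠ 2)
    (hgr : g ^ r = 1) {U : Subgroup H} (hUT : U ≤ T₁) (hU : U ≠ ⊥) {y : V} (hy0 : y ≠ 0)
    (hy : ∀ u ∈ U, u • y = y) (hnor : ∀ u ∈ U, g⁻¹ * u * g ∈ U) : False := by
  have hodd := odd_of_prime hr hr2
  have hfpf : ∀ z : V, g • z = z → z = 0 := by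
    intro z hz
    by_contra hz0
    exact fpf_of_prime S two hM hT hτ hgT hg1 hr hr2 hgr hz0 hz
  let g₂ := τ * g * τ⁻¹
  have hg₂T : g₂ ∈ cj τ T₁ := conj_mem_cj hgT
  have hg₂r : g₂ ^ r = 1 := by
    change (τ * g * τ⁻¹) ^ r = 1
    rw [conj_pow, hgr]
    simp
  have hT₂C : cj τ T₁ ≤ CC T₁ T₁ := le_CC hτ
  have hcomm : ∀ c ∈ CC T₁ T₁, ∀ t ∈ T₁, c * t = t * c := by
    intro c hc t ht
    have := CC_comm hM.1 hT (1 : H) c (by rwa [cj_one]) t (by rwa [cj_one])
    exact this
  have hgg₂ : g₂ * g = g * g₂ := hcomm g₂ (hT₂C hg₂T) g hgT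
  have hfpf₂ : ∀ z : V, g₂ • z = z → z = 0 := by
    intro z hz
    have h1 : g • (τ⁻¹ • z) = τ⁻¹ • z := by
      have e : (τ * g * τ⁻¹) • z = z := hz
      rw [mul_smul, mul_smul] at e
      exact (inv_smul_eq_iff.mpr e.symm).symm
    have h2 := hfpf _ h1
    have h3 := inv_smul_eq_iff.mp h2
    simpa using h3
  let Y : AddSubgroup V :=
    { carrier := {x | ∀ u ∈ U, u • x = x}
      add_mem' := by
        intro a b ha hb u hu
        rw [smul_add, ha u hu, hb u hu]
      zero_mem' := fun u _ => smul_zero u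
      neg_mem' := by
        intro a ha u hu
        rw [smul_neg, ha u hu] }
  have hYg : ∀ z ∈ Y, g • z ∈ Y := by
    intro z hz u hu
    have e : u * g = g * (g⁻¹ * u * g) := by group
    rw [← mul_smul, e, mul_smul, hz _ (hnor u hu)]
  have hYg₂ : ∀ z ∈ Y, g₂ • z ∈ Y := by
    intro z hz u hu
    have e : u * g₂ = g₂ * u := (hcomm g₂ (hT₂C hg₂T) u (hUT hu)).symm
    rw [← mul_smul, e, mul_smul, hz u hu]
  have hyY : y ∈ Y := hy
  have hsig : sig g r y = 0 := by
    apply hfpf
    exact smul_sig hgr y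
  have hsig₂ : sig g₂ r y = 0 := by
    apply hfpf₂
    exact smul_sig hg₂r y
  have hsum := sum_sig_eq two (a := g) (b := g₂) hgg₂.symm hr hr2 hgr y hsig
  obtain ⟨j, hj, hv⟩ : ∃ j ∈ Finset.range r, sig (g ^ j * g₂) r y ≠ 0 := by
    by_contra hcon
    push Not at hcon
    rw [Finset.sum_eq_zero hcon] at hsum
    exact hy0 hsum.symm
  have hjr := Finset.mem_range.mp hj
  have hj0 : 0 < j := by
    rw [Nat.pos_iff_ne_zero]
    rintro rfl
    apply hv
    simpa using hsig₂
  set v := sig (g ^ j * g₂) r y with hvdef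
  have hc₂ : Commute (g ^ j) g₂ := ((show Commute g g₂ from hgg₂.symm)).pow_left j
  have hpr : (g ^ j * g₂) ^ r = 1 := by
    rw [hc₂.mul_pow, ← pow_mul, mul_comm, pow_mul, hgr, one_pow, hg₂r, one_mul]
  have hvfix : (g ^ j * g₂) • v = v := smul_sig hpr y
  have hvY : v ∈ Y := by
    rw [hvdef, sig_apply]
    refine AddSubgroup.sum_mem _ (fun i _ => ?_)
    have hstep : ∀ n : ℕ, ∀ z ∈ Y, (g ^ j * g₂) ^ n • z ∈ Y := by
      intro n
      induction n with
      | zero => intro z hz; simpa using hz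
      | succ n ih =>
        intro z hz
        rw [pow_succ, mul_smul]
        apply ih
        rw [mul_smul]
        have hgpow : ∀ m : ℕ, ∀ z ∈ Y, g ^ m • z ∈ Y := by
          intro m
          induction m with
          | zero => intro z hz; simpa using hz
          | succ m ihm =>
            intro z hz
            rw [pow_succ, mul_smul]
            exact ihm _ (hYg z hz)
        exact hgpow j _ (hYg₂ z hz)
    exact hstep i y hyY
  rcases key S hM.1 hT (T₁.pow_mem hgT j) (hT₂C hg₂T) hvfix with h1 | h1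
  · have h2 := fixed_of_pow_fixed hgr hr hj0 hjr h1
    exact hv (hfpf v h2)
  · -- `T₁` is semiregular on the orbit
    obtain ⟨u, huU, hu1⟩ : ∃ u ∈ U, u ≠ 1 := by
      by_contra hcon
      push Not at hcon
      exact hU ((Subgroup.eq_bot_iff_forall _).mpr hcon)
    apply hu1
    exact S.eq_one_of_comm hv h1 (fun b hb => (hcomm b hb u (hUT huU)).symm) (hvY u huU)

/-- The case of two or more simple factors is impossible. -/
theorem no_second (S : Base H V) (two : ∀ x : V, x + x = 0) [Nontrivial V]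
    (hM : Cfsg.Agent.Lib.CharSimple.Forward.IsMinNormal M) (hT : IsMinAdm M T₁)
    {τ : H} (hτ : cj τ T₁ ≠ T₁) (hna0 : ¬ ∀ a b : T₁, a * b = b * a) : False := by
  have hTs := isSimple hM hT
  -- the Frobenius condition
  have hF : Cfsg.Agent.Lib.Transfer.Frobenius.FrobeniusCond 2 T₁ := by
    intro D hD g hg hco
    by_cases hbot : D = ⊥
    · subst hbot
      rw [Cfsg.Agent.Lib.Transfer.Frobenius.mem_centralizer_iff']
      intro x hx
      have : x = 1 := hx
      simp [this]
    by_cases hg1 : g = 1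
    · rw [hg1]
      exact Subgroup.one_mem _
    exfalso
    -- an element of odd prime order
    have hord : orderOf g ≠ 1 := fun e => hg1 (orderOf_eq_one_iff.mp e)
    obtain ⟨r, hr, hrd⟩ := Nat.exists_prime_and_dvd hord
    have hr2 : r ≠ 2 := by
      rintro rfl
      have := Nat.Coprime.eq_one_of_dvd (Nat.Coprime.symm hco) hrd
      omega
    have hpos : orderOf g ≠ 0 := (orderOf_pos g).ne'
    let g' : T₁ := g ^ (orderOf g / r)
    have hg'ord : orderOf g' = r := orderOf_pow_orderOf_div hpos hrd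
    have hg'1 : (g' : H) ≠ 1 := by
      intro e
      have : g' = 1 := Subtype.ext e
      rw [this, orderOf_one] at hg'ord
      exact hr.one_lt.ne hg'ord
    have hg'r : (g' : H) ^ r = 1 := by
      have : g' ^ r = 1 := by rw [← hg'ord]; exact pow_orderOf_eq_one g'
      exact congrArg Subtype.val this
    have hg'nor : g' ∈ Subgroup.normalizer (D : Set T₁) := Subgroup.pow_mem _ hg _
    let U : Subgroup H := D.map T₁.subtype
    have hUT : U ≤ T₁ := by
      rintro _ ⟨d, _, rfl⟩
      exact d.2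
    have hU : U ≠ ⊥ := by
      intro e
      exact hbot ((Subgroup.map_eq_bot_iff_of_injective _ T₁.subtype_injective).mp e)
    have hUp : IsPGroup 2 U := by
      have e : U ≃* D := (D.equivMapOfInjective T₁.subtype T₁.subtype_injective).symm
      exact hD.of_equiv e.symm
    obtain ⟨y, hy0, hy⟩ := exists_fixed_of_isPGroup two U hUp
    refine no_local S two hM hT hτ g'.2 hg'1 hr hr2 hg'r hUT hU hy0 hy ?_
    rintro _ ⟨d, hd, rfl⟩
    have h1 := Cfsg.Agent.Lib.Transfer.Frobenius.mem_normalizer_iff'.mp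
      (Subgroup.inv_mem _ hg'nor) d
    have h2 := h1.mp hd
    refine ⟨_, h2, ?_⟩
    simp
  have hcompl := Cfsg.Agent.Lib.Transfer.Frobenius.hasNormalPComplement_of_frobeniusCond hF
  obtain ⟨N, hN, h1, h2⟩ :=
    Cfsg.Agent.Lib.Transfer.Basic.hasNormalPComplement_iff_exists.mp hcompl
  have hna : ¬ ∀ a b : T₁, a * b = b * a := hna0
  haveI := hTs
  have hsolv : ¬ Group.IsSolvable T₁ := fun h =>
    hna ((IsSimpleGroup.comm_iff_isSolvable (G := T₁)).mpr h)
  rcases hTs.eq_bot_or_eq_top_of_normal N hN with h3 | h3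
  · -- `T₁` is a `2`-group
    apply hsolv
    subst h3
    have h4 : IsPGroup 2 T₁ := by
      intro x
      obtain ⟨k, hk⟩ := h2 (QuotientGroup.mk x)
      refine ⟨k, ?_⟩
      have h5 : ((x ^ (2 ^ k) : T₁) : T₁ ⧸ (⊥ : Subgroup T₁)) = 1 := by
        rw [QuotientGroup.mk_pow]
        exact hk
      rw [QuotientGroup.eq_one_iff] at h5
      exact h5
    haveI : Fact (Nat.Prime 2) := ⟨Nat.prime_two⟩
    haveI := h4.isNilpotent
    infer_instance
  · -- `T₁` has odd order
    subst h3
    apply hsolv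
    apply S.ft
    rw [Nat.card_congr (Subgroup.topEquiv (G := T₁)).toEquiv.symm]
    rw [← Nat.not_even_iff_odd, even_iff_two_dvd]
    intro h4
    have := Nat.Coprime.eq_one_of_dvd (Nat.Coprime.symm h1) h4
    omega

/-- A minimal normal subgroup which is abelian forces solvability. -/
theorem solvable_of_abelian (S : Base H V) (two : ∀ x : V, x + x = 0) [Nontrivial V]
    (hM : Cfsg.Agent.Lib.CharSimple.Forward.IsMinNormal M)
    (hc : ∀ a ∈ M, ∀ b ∈ M, a * b = b * a) : Group.IsSolvable H := by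
  have hMn := hM.1
  have hfpf : ∀ a ∈ M, ∀ v : V, v ≠ 0 → a • v = v → a = 1 := by
    intro a ha v hv hav
    exact S.eq_one_of_comm hv (S.trans hMn hM.2.1 hv) (fun b hb => hc a ha b hb) hav
  -- an element of prime order
  obtain ⟨a₀, ha₀, ha₀1⟩ : ∃ a₀ ∈ M, a₀ ≠ 1 := by
    by_contra hcon
    push Not at hcon
    exact hM.2.1 ((Subgroup.eq_bot_iff_forall _).mpr hcon)
  have hord : orderOf a₀ ≠ 1 := fun e => ha₀1 (orderOf_eq_one_iff.mp e)
  obtain ⟨r, hr, hrd⟩ := Nat.exists_prime_and_dvd hord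
  have hpos : orderOf a₀ ≠ 0 := (orderOf_pos a₀).ne'
  let a := a₀ ^ (orderOf a₀ / r)
  have haM : a ∈ M := M.pow_mem ha₀ _
  have haord : orderOf a = r := orderOf_pow_orderOf_div hpos hrd
  have har : a ^ r = 1 := by rw [← haord]; exact pow_orderOf_eq_one a
  have ha1 : a ≠ 1 := by
    intro e
    rw [e, orderOf_one] at haord
    exact hr.one_lt.ne haord
  have hr2 : r ≠ 2 := by
    rintro rfl
    -- an involution has a fixed vector
    obtain ⟨y, hy⟩ : ∃ y : V, a • y ≠ y := by
      by_contra hcon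
      push Not at hcon
      exact ha1 (S.faith a hcon)
    have h1 : a • (y + a • y) = y + a • y := by
      rw [smul_add, smul_smul, ← sq, har, one_smul, add_comm]
    have h0 : y + a • y ≠ 0 := by
      intro e
      apply hy
      have := congrArg (· + a • y) e
      simp only [add_assoc, two, add_zero, zero_add] at this
      exact this.symm
    exact ha1 (hfpf a haM _ h0 h1)
  obtain ⟨v₀, hv₀⟩ := exists_ne (0 : V)
  -- all the elements have order dividing `r`
  have hexp : ∀ b ∈ M, b ^ r = 1 := by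
    let K : Subgroup H :=
      { carrier := {b | b ∈ M ∧ b ^ r = 1}
        mul_mem' := by
          rintro x y ⟨hx, hx1⟩ ⟨hy, hy1⟩
          refine ⟨M.mul_mem hx hy, ?_⟩
          have hcxy : Commute x y := hc x hx y hy
          rw [hcxy.mul_pow, hx1, hy1, one_mul]
        one_mem' := ⟨M.one_mem, one_pow _⟩
        inv_mem' := by
          rintro x ⟨hx, hx1⟩
          exact ⟨M.inv_mem hx, by rw [inv_pow, hx1, inv_one]⟩ }
    have hKn : K.Normal := by
      constructor
      rintro x ⟨hx, hx1⟩ g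
      exact ⟨hMn.conj_mem x hx g, by rw [conj_pow, hx1]; simp⟩
    have hKM : K ≤ M := fun x hx => hx.1
    rcases hM.2.2 K hKn hKM with h1 | h1
    · exfalso
      have : a ∈ K := ⟨haM, har⟩
      rw [h1, Subgroup.mem_bot] at this
      exact ha1 this
    · intro b hb
      rw [← h1] at hb
      exact hb.2
  -- the norm of a non-trivial element of `M` vanishes
  have hsig0 : ∀ b ∈ M, b ≠ 1 → ∀ x : V, sig b r x = 0 := by
    intro b hb hb1 x
    by_contra hne
    exact hb1 (hfpf b hb _ hne (smul_sig (hexp b hb) x))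
  -- `M` is generated by `a`
  have hcyc : ∀ b ∈ M, b ∈ Subgroup.zpowers a := by
    intro b hb
    by_contra hnb
    have hsum := sum_sig_eq two (a := a) (b := b) (hc a haM b hb) hr hr2 har v₀ (hsig0 a haM ha1 v₀)
    rw [Finset.sum_eq_zero] at hsum
    · exact hv₀ hsum.symm
    · intro j _
      apply hsig0 _ (M.mul_mem (M.pow_mem haM j) hb)
      intro e
      apply hnb
      have : b = (a ^ j)⁻¹ := eq_inv_of_mul_eq_one_right e
      rw [this]
      exact Subgroup.inv_mem _ (Subgroup.pow_mem _ (Subgroup.mem_zpowers a) j)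
  -- the centralizer of `a` is `M`
  have hCM : ∀ c : H, c * a = a * c → c ∈ M := by
    intro c hca
    obtain ⟨n, hn, e⟩ := S.trans hMn hM.2.1 hv₀ c
    have h1 : n⁻¹ * c = 1 := by
      apply S.eq_one_of_comm hv₀ (S.trans hMn hM.2.1 hv₀)
      · intro b hb
        obtain ⟨k, rfl⟩ := hcyc b hb
        have hk1 : Commute c (a ^ k) := (show Commute c a from hca).zpow_right k
        have hk2 : Commute n⁻¹ (a ^ k) := by
          have : a ^ k ∈ M := hb
          exact (show Commute n (a ^ k) from hc n hn _ this).inv_left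
        exact (hk2.mul_left hk1).eq
      · rw [mul_smul, ← e, inv_smul_smul]
    have : c = n := by
      rw [inv_mul_eq_one] at h1
      exact h1.symm
    rw [this]
    exact hn
  -- the commutators lie in `M`
  have hconj : ∀ h : H, ∃ k : ℤ, h * a * h⁻¹ = a ^ k := by
    intro h
    obtain ⟨k, hk⟩ := hcyc _ (hMn.conj_mem a haM h)
    exact ⟨k, hk.symm⟩
  have hcomm : ∀ x y : H, x⁻¹ * y⁻¹ * (x * y) ∈ M := by
    intro x y
    obtain ⟨k, hk⟩ := hconj x
    obtain ⟨l, hl⟩ := hconj y
    have e1 : (x * y) * a * (x * y)⁻¹ = a ^ (k * l) := by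
      have : (x * y) * a * (x * y)⁻¹ = x * (y * a * y⁻¹) * x⁻¹ := by group
      rw [this, hl, ← conj_zpow, hk, zpow_mul]
    have e2 : (y * x) * a * (y * x)⁻¹ = a ^ (l * k) := by
      have : (y * x) * a * (y * x)⁻¹ = y * (x * a * x⁻¹) * y⁻¹ := by group
      rw [this, hk, ← conj_zpow, hl, zpow_mul]
    have e3 : (x * y) * a * (x * y)⁻¹ = (y * x) * a * (y * x)⁻¹ := by
      rw [e1, e2, mul_comm]
    apply hCM
    have e4 : (x * y) * a = (y * x) * a * (y * x)⁻¹ * (x * y) := by
      rw [← e3]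
      group
    calc x⁻¹ * y⁻¹ * (x * y) * a = (y * x)⁻¹ * ((x * y) * a) := by group
      _ = (y * x)⁻¹ * ((y * x) * a * (y * x)⁻¹ * (x * y)) := by rw [e4]
      _ = a * (x⁻¹ * y⁻¹ * (x * y)) := by group
  haveI : Group.IsSolvable M :=
    Group.isSolvable_of_comm (fun a b => Subtype.ext (hc a a.2 b b.2))
  haveI : Group.IsSolvable (H ⧸ M) := by
    apply Group.isSolvable_of_comm
    intro x y
    induction x using QuotientGroup.induction_on with
    | H x =>
      induction y using QuotientGroup.induction_on with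
      | H y =>
        rw [← QuotientGroup.mk_mul, ← QuotientGroup.mk_mul, QuotientGroup.eq]
        have := hcomm x y
        have e : (x * y)⁻¹ * (y * x) = (y⁻¹ * x⁻¹ * (y * x)) := by group
        rw [e]
        exact hcomm y x
  refine solvable_of_ker_le_range M.subtype (QuotientGroup.mk' M) ?_
  rw [QuotientGroup.ker_mk', Subgroup.range_subtype]

/-- **Main abstract theorem.** -/
theorem main (S : Base H V) (two : ∀ x : V, x + x = 0) [Nontrivial V] (hns : ¬ Group.IsSolvable H) :
    ∃ T : Subgroup H, T.Normal ∧ IsSimpleGroup T ∧ ¬ IsMulCommutative T ∧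
      Subgroup.centralizer (T : Set H) = ⊥ := by
  classical
  haveI : Nontrivial H := by
    by_contra hcon
    rw [not_nontrivial_iff_subsingleton] at hcon
    exact hns inferInstance
  obtain ⟨M, hM⟩ := Cfsg.Agent.Lib.CharSimple.Forward.exists_isMinNormal (G := H)
  haveI hMn := hM.1
  have hMc : ¬ ∀ a ∈ M, ∀ b ∈ M, a * b = b * a := fun hc => hns (solvable_of_abelian S two hM hc)
  have hAdM : Adm M M := ⟨hM.2.1, le_rfl, fun m hm => by
    rw [mem_nz]
    ext a
    rw [mem_cj]
    constructor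
    · intro ha
      have := M.mul_mem (M.mul_mem hm ha) (M.inv_mem hm)
      simpa [mul_assoc] using this
    · intro ha
      exact M.mul_mem (M.mul_mem (M.inv_mem hm) ha) hm⟩
  have hfin : ({S : Subgroup H | Adm M S}).Finite := Set.toFinite _
  obtain ⟨T, hTm⟩ := hfin.exists_minimal ⟨M, hAdM⟩
  have hT : IsMinAdm M T := ⟨hTm.1, fun S hS hle => le_antisymm hle (hTm.2 hS hle)⟩
  have hTs := isSimple hM hT
  have hTna := not_comm hM hT hMc
  by_cases hall : ∀ g : H, cj g T = T
  · have hTn : T.Normal := ⟨fun n hn g => by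
      have := conj_mem_cj (g := g) hn
      rwa [hall g] at this⟩
    refine ⟨T, hTn, hTs, ?_, ?_⟩
    · intro hc
      apply hTna
      intro a b
      exact hc.is_comm.comm a b
    · by_contra hC
      haveI := hTn
      -- `T` has even order
      have heven : Even (Nat.card T) := by
        rw [← Nat.not_odd_iff_even]
        intro hodd
        haveI := hTs
        exact hTna ((IsSimpleGroup.comm_iff_isSolvable (G := T)).mpr (S.ft T hodd))
      haveI : Fact (Nat.Prime 2) := ⟨Nat.prime_two⟩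
      obtain ⟨t, ht⟩ := exists_prime_orderOf_dvd_card' 2 (even_iff_two_dvd.mp heven)
      have ht2 : (t : H) ^ 2 = 1 := by
        have : t ^ 2 = 1 := by rw [← ht]; exact pow_orderOf_eq_one t
        exact congrArg Subtype.val this
      have ht1 : (t : H) ≠ 1 := by
        intro e
        have : t = 1 := Subtype.ext e
        rw [this, orderOf_one] at ht
        omega
      obtain ⟨y, hy⟩ : ∃ y : V, (t : H) • y ≠ y := by
        by_contra hcon
        push Not at hcon
        exact ht1 (S.faith _ hcon)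
      have h1 : (t : H) • (y + (t : H) • y) = y + (t : H) • y := by
        rw [smul_add, smul_smul, ← sq, ht2, one_smul, add_comm]
      have h0 : y + (t : H) • y ≠ 0 := by
        intro e
        apply hy
        have := congrArg (· + (t : H) • y) e
        simp only [add_assoc, two, add_zero, zero_add] at this
        exact this.symm
      apply ht1
      refine S.eq_one_of_comm h0 (S.trans inferInstance hC h0) ?_ h1
      intro b hb
      exact Subgroup.mem_centralizer_iff.mp hb t t.2 |>.symm ▸ rfl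
  · exfalso
    push Not at hall
    obtain ⟨τ, hτ⟩ := hall
    exact no_second S two hM hT hτ hTna

end step3

end lemmas

end Cfsg.Agent.Lib.ExtPrim.Affine
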