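import Cfsg.Agent.Lib.ExtPrim.Affine
import Cfsg.Agent.Lib.Perm.Normal

/-!
# Insoluble extremely primitive groups of affine type

The transfer of `Cfsg.Agent.Lib.ExtPrim.Affine` to a permutation group with a regular abelian
normal subgroup.
-/

set_option autoImplicit false

open MulAction
open Cfsg.Agent.Lib.ExtPrim.Core Cfsg.Agent.Lib.ExtPrim.Main Cfsg.Agent.Lib.ExtPrim.Affine

namespace Cfsg.Agent.Lib.ExtPrim.AffineMain

universe u v

section abstract

variable {H : Type u} [Group H] [Finite H] {V : Type v} [AddCommGroup V] [Finite V]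
  [DistribMulAction H V]

/-- The exponent of an irreducible module of prime-power order. -/
theorem exp_eq (S : Base H V) [Nontrivial V] {p d : ℕ} (hp : p.Prime) (hcard : Nat.card V = p ^ d) :
    ∀ x : V, p • x = 0 := by
  haveI : Fact p.Prime := ⟨hp⟩
  let A : AddSubgroup V := (nsmulAddMonoidHom p : V →+ V).range
  have hinv : ∀ h : H, ∀ a ∈ A, h • a ∈ A := by
    rintro h _ ⟨x, rfl⟩
    refine ⟨h • x, ?_⟩
    exact (map_nsmul (DistribMulAction.toAddMonoidHom V h) p x).symm
  rcases S.irr A hinv with h1 | h1
  · intro x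
    have : (nsmulAddMonoidHom p : V →+ V) x ∈ A := ⟨x, rfl⟩
    rw [h1, AddSubgroup.mem_bot] at this
    simpa using this
  · exfalso
    have hsurj : Function.Surjective (nsmulAddMonoidHom p : V →+ V) := by
      rw [← AddMonoidHom.range_eq_top]
      exact h1
    have hinj := Finite.injective_iff_surjective.mpr hsurj
    have hdvd : p ∣ Nat.card V := by
      rw [hcard]
      have hd : d ≠ 0 := by
        rintro rfl
        have h1 : Nat.card V = 1 := by simpa using hcard
        have h2 := Finite.one_lt_card (α := V)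
        omega
      exact dvd_pow_self p hd
    obtain ⟨y, hy⟩ := exists_prime_addOrderOf_dvd_card' p hdvd
    have hy0 : y ≠ 0 := by
      rintro rfl
      rw [addOrderOf_zero] at hy
      exact hp.one_lt.ne hy
    apply hy0
    apply hinj
    have h2 : p • y = 0 := by rw [← hy]; exact addOrderOf_nsmul_eq_zero y
    simpa using h2

/-- With odd `p` the group is solvable. -/
theorem solvable_of_odd (S : Base H V) {p : ℕ} (hp : p.Prime) (hp2 : p ≠ 2)
    (hexp : ∀ x : V, p • x = 0) : Group.IsSolvable H := by
  by_cases heven : Even (Nat.card H)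
  · haveI : Fact (Nat.Prime 2) := ⟨Nat.prime_two⟩
    obtain ⟨t, ht⟩ := exists_prime_orderOf_dvd_card' 2 (even_iff_two_dvd.mp heven)
    have ht2 : t ^ 2 = 1 := by rw [← ht]; exact pow_orderOf_eq_one t
    have ht1 : t ≠ 1 := by
      rintro rfl
      rw [orderOf_one] at ht
      omega
    obtain ⟨y, hy⟩ : ∃ y : V, t • y ≠ y := by
      by_contra hcon
      push Not at hcon
      exact ht1 (S.faith _ hcon)
    let v := t • y - y
    have hv : v ≠ 0 := sub_ne_zero.mpr hy
    have htv : t • v = -v := by
      change t • (t • y - y) = -(t • y - y)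
      rw [smul_sub, smul_smul, ← sq, ht2, one_smul]
      abel
    have hodd : ∀ x : V, x + x = 0 → x = 0 := by
      intro x hx
      obtain ⟨k, hk⟩ := hp.odd_of_ne_two hp2
      have h1 : p • x = k • (x + x) + x := by
        rw [hk, nsmul_add, add_nsmul, two_mul, add_nsmul, one_nsmul]
      rw [hx, smul_zero, zero_add, hexp] at h1
      exact h1.symm
    let f : V → Subgroup H → Set V := fun x _ => (AddSubgroup.zmultiples x : Set V)
    have hz : ∀ (x w : V) (A : Subgroup H), w ∈ f x A ↔ ∃ k : ℤ, k • x = w :=
      fun x w _ => AddSubgroup.mem_zmultiples_iff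
    have hzc : ∀ (h : H) (l : ℤ) (y : V), h • (l • y) = l • (h • y) :=
      fun h l y => map_zsmul (DistribMulAction.toAddMonoidHom V h) l y
    have hsub : ∀ (h : H) (x y : V), f x = f y → f (h • x) ⊥ ⊆ f (h • y) ⊥ := by
      intro h x y hxy w hw
      obtain ⟨k, rfl⟩ := (hz _ _ ⊥).mp hw
      have h1 : x ∈ f x ⊥ := (hz _ _ ⊥).mpr ⟨1, one_smul _ _⟩
      rw [hxy] at h1
      obtain ⟨l, hl⟩ := (hz _ _ ⊥).mp h1
      refine (hz _ _ ⊥).mpr ⟨k * l, ?_⟩
      rw [← hl, mul_smul, hzc]
    have hinv : ∀ (h : H) (x y : V), f x = f y → f (h • x) = f (h • y) := by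
      intro h x y hxy
      funext A
      exact Set.Subset.antisymm (hsub h x y hxy) (hsub h y x hxy.symm)
    rcases S.dich v f hinv with h1 | h1
    · exfalso
      have h2 : t • v = v := by
        apply h1
        funext A
        change (AddSubgroup.zmultiples (t • v) : Set V) = (AddSubgroup.zmultiples v : Set V)
        rw [htv, AddSubgroup.zmultiples_neg]
      rw [htv] at h2
      apply hv
      apply hodd
      nth_rw 1 [← h2]
      simp
    · have hA : AddSubgroup.zmultiples v = ⊤ := by
        rcases S.irr (AddSubgroup.zmultiples v) (by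
          intro h w hw
          obtain ⟨k, rfl⟩ := AddSubgroup.mem_zmultiples_iff.mp hw
          have h2 : h • v ∈ f (h • v) ⊥ := (hz _ _ ⊥).mpr ⟨1, one_smul _ _⟩
          rw [h1 h] at h2
          obtain ⟨l, hl⟩ := (hz _ _ ⊥).mp h2
          refine AddSubgroup.mem_zmultiples_iff.mpr ⟨k * l, ?_⟩
          rw [mul_smul, hl, hzc]) with h2 | h2
        · exfalso
          have : v ∈ AddSubgroup.zmultiples v := AddSubgroup.mem_zmultiples v
          rw [h2, AddSubgroup.mem_bot] at this
          exact hv this
        · exact h2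
      have hcomm : ∀ a b : H, a * b = b * a := by
        intro a b
        have e : ∀ c : H, ∃ k : ℤ, c • v = k • v := by
          intro c
          have : c • v ∈ AddSubgroup.zmultiples v := by rw [hA]; trivial
          obtain ⟨k, hk⟩ := AddSubgroup.mem_zmultiples_iff.mp this
          exact ⟨k, hk.symm⟩
        have h2 : (b * a)⁻¹ * (a * b) = 1 := by
          apply S.faith
          intro x
          have hx : x ∈ AddSubgroup.zmultiples v := by rw [hA]; trivial
          obtain ⟨m, rfl⟩ := AddSubgroup.mem_zmultiples_iff.mp hx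
          obtain ⟨k, hk⟩ := e a
          obtain ⟨l, hl⟩ := e b
          have e1 : (a * b) • v = (b * a) • v := by
            rw [mul_smul, mul_smul, hk, hl, hzc a l, hzc b k, hk, hl, smul_smul, smul_smul, mul_comm]
          rw [hzc, mul_smul, e1, inv_smul_smul]
        rw [inv_mul_eq_one] at h2
        exact h2.symm
      exact Group.isSolvable_of_comm hcomm
  · rw [Nat.not_even_iff_odd] at heven
    have h1 := S.ft ⊤ (by rwa [Subgroup.card_top])
    exact solvable_of_solvable_injective (f := (Subgroup.topEquiv (G := H)).symm.toMonoidHom)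
      (Subgroup.topEquiv (G := H)).symm.injective

end abstract

section transfer

variable {G : Type u} [Group G] {Ω : Type v} [MulAction G Ω]

/-- The commutative group structure on an abelian subgroup. -/
@[reducible] def commGroupN (N : Subgroup G) [IsMulCommutative N] : CommGroup N :=
  { (inferInstance : Group N) with mul_comm := fun a b => IsMulCommutative.is_comm.comm a b }

attribute [local instance] commGroupN

variable {α : Ω} {N : Subgroup G} [hNn : N.Normal] [IsMulCommutative N]

/-- The conjugation action. -/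
def conjN (h : stabilizer G α) (v : N) : N := ⟨(h : G) * v * (h : G)⁻¹, hNn.conj_mem _ v.2 _⟩

@[simp] theorem conjN_coe (h : stabilizer G α) (v : N) :
    ((conjN h v : N) : G) = (h : G) * v * (h : G)⁻¹ := rfl

/-- The action on `Additive N`. -/
@[reducible] def actN : DistribMulAction (stabilizer G α) (Additive N) where
  smul h v := Additive.ofMul (conjN h v.toMul)
  one_smul v := by
    apply Additive.toMul.injective
    apply Subtype.ext
    simp [HSMul.hSMul, SMul.smul]
  mul_smul a b v := by
    apply Additive.toMul.injective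
    apply Subtype.ext
    simp [HSMul.hSMul, SMul.smul, mul_assoc]
  smul_zero a := by
    apply Additive.toMul.injective
    apply Subtype.ext
    simp [HSMul.hSMul, SMul.smul]
  smul_add a x y := by
    apply Additive.toMul.injective
    apply Subtype.ext
    simp [HSMul.hSMul, SMul.smul, mul_assoc]

attribute [local instance] actN

theorem toMul_smul (h : stabilizer G α) (v : Additive N) :
    (((h • v : Additive N).toMul : N) : G) = (h : G) * (v.toMul : N) * (h : G)⁻¹ := rfl

theorem smul_point (h : stabilizer G α) (v : Additive N) :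
    (((h • v : Additive N).toMul : N) : G) • α = (h : G) • ((v.toMul : N) : G) • α := by
  rw [toMul_smul, mul_smul, mul_smul, inv_smul_eq_iff.mpr (h.2 : (h : G) • α = α).symm]

variable [Finite G] [FaithfulSMul G Ω]

theorem reg_of (hreg : ∀ ω : Ω, stabilizer N ω = ⊥) {a b : N} (h : (a : G) • α = (b : G) • α) : a = b := by
  have h1 : (b⁻¹ * a) ∈ stabilizer N α := by
    rw [mem_stabilizer_iff]
    change ((b : G)⁻¹ * (a : G)) • α = α
    rw [mul_smul, h, inv_smul_smul]
  rw [hreg α, Subgroup.mem_bot, inv_mul_eq_one] at h1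
  exact h1.symm

/-- The abstract hypotheses hold. -/
theorem base (hprim : IsPreprimitive G Ω) (hN : N ≠ ⊥)
    (hreg : ∀ ω : Ω, stabilizer N ω = ⊥)
    (hep : ∀ ω : Ω, IsPreprimitive (stabilizer G α) (orbit (stabilizer G α) ω))
    (hFT : ∀ T : Subgroup (stabilizer G α), Odd (Nat.card T) → Group.IsSolvable T) :
    Base (stabilizer G α) (Additive N) := by
  have hMtr : IsPretransitive N Ω :=
    Cfsg.Agent.Lib.Perm.Normal.isPretransitive_of_normal_of_ne_bot hprim N hN
  have htr : ∀ ω : Ω, ∃ n : N, (n : G) • α = ω := by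
    intro ω
    obtain ⟨m, hm⟩ := hMtr.exists_smul_eq α ω
    exact ⟨m, hm⟩
  choose τ₀ hτ₀ using htr
  have hτ₀n : ∀ n : N, τ₀ ((n : G) • α) = n := fun n => reg_of hreg (hτ₀ _)
  refine ⟨?_, ?_, ?_, hFT⟩
  · -- faithful
    intro h hh
    apply Subtype.ext
    apply FaithfulSMul.eq_of_smul_eq_smul (α := Ω)
    intro ω
    obtain ⟨n, rfl⟩ : ∃ n : N, (n : G) • α = ω := ⟨_, hτ₀ ω⟩
    have h1 := smul_point h (Additive.ofMul n)
    have h2 := hh (Additive.ofMul n)
    rw [h2] at h1
    simpa using h1.symm
  · -- irreducible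
    intro A hA
    let A' : Subgroup G :=
      { carrier := {g | ∃ v ∈ A, ((v.toMul : N) : G) = g}
        mul_mem' := by
          rintro _ _ ⟨x, hx, rfl⟩ ⟨y, hy, rfl⟩
          exact ⟨x + y, A.add_mem hx hy, rfl⟩
        one_mem' := ⟨0, A.zero_mem, rfl⟩
        inv_mem' := by
          rintro _ ⟨x, hx, rfl⟩
          exact ⟨-x, A.neg_mem hx, rfl⟩ }
    have hA'N : A' ≤ N := by
      rintro _ ⟨x, _, rfl⟩
      exact (x.toMul : N).2
    have hA'n : A'.Normal := by
      constructor
      rintro _ ⟨x, hx, rfl⟩ g
      obtain ⟨n, hn⟩ : ∃ n : N, (n : G) • α = g • α := ⟨_, hτ₀ _⟩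
      have hhα : ((n : G)⁻¹ * g) • α = α := by
        rw [mul_smul, ← hn, inv_smul_smul]
      let h : stabilizer G α := ⟨(n : G)⁻¹ * g, hhα⟩
      refine ⟨h • x, hA h x hx, ?_⟩
      rw [toMul_smul]
      have e : g = (n : G) * (h : G) := by
        change g = (n : G) * ((n : G)⁻¹ * g)
        group
      have hcomm : (n : G) * ((h : G) * (x.toMul : N) * (h : G)⁻¹) =
          ((h : G) * (x.toMul : N) * (h : G)⁻¹) * (n : G) := by
        have := mul_comm n (conjN h x.toMul)
        exact congrArg Subtype.val this
      rw [e]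
      calc (h : G) * (x.toMul : N) * (h : G)⁻¹
          = (n : G) * ((h : G) * (x.toMul : N) * (h : G)⁻¹) * (n : G)⁻¹ := by
            rw [hcomm]; group
        _ = _ := by group
    by_cases hb : A' = ⊥
    · left
      rw [eq_bot_iff]
      intro x hx
      have : ((x.toMul : N) : G) ∈ A' := ⟨x, hx, rfl⟩
      rw [hb, Subgroup.mem_bot] at this
      rw [AddSubgroup.mem_bot]
      apply Additive.toMul.injective
      exact Subtype.ext this
    · right
      haveI := hA'n
      have htrA : IsPretransitive A' Ω :=
        Cfsg.Agent.Lib.Perm.Normal.isPretransitive_of_normal_of_ne_bot hprim A' hb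
      rw [eq_top_iff]
      intro x _
      obtain ⟨a, ha⟩ := htrA.exists_smul_eq α (((x.toMul : N) : G) • α)
      obtain ⟨y, hy, hya⟩ := a.2
      have h1 : ((y.toMul : N) : G) • α = ((x.toMul : N) : G) • α := by
        rw [hya]
        exact ha
      have h2 := reg_of hreg h1
      have h3 : y = x := Additive.toMul.injective h2
      rwa [← h3]
  · -- the dichotomy
    intro v f hf
    let F : Ω → Subgroup (stabilizer G α) → Set (Additive N) := fun ω => f (Additive.ofMul (τ₀ ω))
    have hτsmul : ∀ (h : stabilizer G α) (ω : Ω),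
        Additive.ofMul (τ₀ ((h : G) • ω)) = h • Additive.ofMul (τ₀ ω) := by
      intro h ω
      apply Additive.toMul.injective
      apply reg_of hreg (α := α)
      rw [smul_point]
      simp only [toMul_ofMul]
      rw [hτ₀, hτ₀]
    have hF : ∀ (h : G), h • α = α → ∀ (x y : Ω), F x = F y → F (h • x) = F (h • y) := by
      intro h hh x y hxy
      have e := hf ⟨h, hh⟩ _ _ hxy
      change f (Additive.ofMul (τ₀ (h • x))) = f (Additive.ofMul (τ₀ (h • y)))
      have e1 := hτsmul ⟨h, hh⟩ x
      have e2 := hτsmul ⟨h, hh⟩ y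
      simp only at e1 e2
      rw [e1, e2]
      exact e
    let ω₀ : Ω := ((v.toMul : N) : G) • α
    have hτω₀ : Additive.ofMul (τ₀ ω₀) = v := by
      apply Additive.toMul.injective
      exact hτ₀n _
    have hsm : ∀ h : stabilizer G α, (h : G) • ω₀ = (((h • v : Additive N).toMul : N) : G) • α :=
      fun h => (smul_point h v).symm
    have hFeq : ∀ h : stabilizer G α, F ((h : G) • ω₀) = f (h • v) := by
      intro h
      change f (Additive.ofMul (τ₀ ((h : G) • ω₀))) = _
      rw [hτsmul, hτω₀]
    have hF0 : F ω₀ = f v := by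
      change f (Additive.ofMul (τ₀ ω₀)) = _
      rw [hτω₀]
    rcases orbit_dichotomy α ω₀ (hep ω₀) F hF with h1 | h1
    · left
      intro h hfh
      have h2 := h1 (h : G) h.2 (by rw [hFeq, hF0, hfh])
      rw [hsm h] at h2
      have h3 := reg_of hreg h2
      exact Additive.toMul.injective h3
    · right
      intro h
      rw [← hFeq, ← hF0]
      exact h1 (h : G) h.2

end transfer

attribute [local instance] commGroupN actN

/-- **Main theorem**. -/
theorem main {G : Type u} [Group G] [Finite G] {Ω : Type v} [Fintype Ω] [MulAction G Ω]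
    [FaithfulSMul G Ω] (p d : ℕ) (hp : p.Prime) (hcard : Fintype.card Ω = p ^ d)
    (hsol : ¬ Group.IsSolvable G) (N : Subgroup G) [N.Normal] (hN : N ≠ ⊥)
    (hNc : IsMulCommutative N) (hNreg : ∀ ω : Ω, stabilizer N ω = ⊥)
    (hprim : IsPreprimitive G Ω)
    (hep : ∀ α ω : Ω, IsPreprimitive (stabilizer G α) (orbit (stabilizer G α) ω)) (α : Ω)
    (hFT : ∀ T : Subgroup (stabilizer G α), Odd (Nat.card T) → Group.IsSolvable T) :
    p = 2 ∧ ∃ T : Subgroup (stabilizer G α), T.Normal ∧ IsSimpleGroup T ∧ ¬ IsMulCommutative T ∧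
      Subgroup.centralizer (T : Set (stabilizer G α)) = ⊥ := by
  classical
  haveI := hNc
  have S : Base (stabilizer G α) (Additive N) := base hprim hN hNreg (hep α) hFT
  have hMtr : IsPretransitive N Ω :=
    Cfsg.Agent.Lib.Perm.Normal.isPretransitive_of_normal_of_ne_bot hprim N hN
  have hcardV : Nat.card (Additive N) = p ^ d := by
    rw [← hcard, ← Nat.card_eq_fintype_card]
    apply Nat.card_congr
    refine Equiv.ofBijective (fun v : Additive N => ((v.toMul : N) : G) • α) ⟨?_, ?_⟩
    · intro x y hxy
      exact Additive.toMul.injective (reg_of hNreg hxy)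
    · intro ω
      obtain ⟨m, hm⟩ := hMtr.exists_smul_eq α ω
      exact ⟨Additive.ofMul m, hm⟩
  haveI : Nontrivial N := (Subgroup.nontrivial_iff_ne_bot N).mpr hN
  haveI : Nontrivial (Additive N) := inferInstance
  have hexp := exp_eq S hp hcardV
  have hns : ¬ Group.IsSolvable (stabilizer G α) := by
    intro hs
    apply hsol
    haveI : Group.IsSolvable N :=
      Group.isSolvable_of_comm (fun a b => IsMulCommutative.is_comm.comm a b)
    haveI : Group.IsSolvable (G ⧸ N) := by
      refine solvable_of_surjective (f := (QuotientGroup.mk' N).comp (stabilizer G α).subtype) ?_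
      intro x
      induction x using QuotientGroup.induction_on with
      | H g =>
        obtain ⟨m, hm⟩ := hMtr.exists_smul_eq α (g • α)
        have hhα : ((m : G)⁻¹ * g) • α = α := by
          rw [mul_smul]
          have hm' : (m : G) • α = g • α := hm
          rw [← hm', inv_smul_smul]
        refine ⟨⟨(m : G)⁻¹ * g, hhα⟩, ?_⟩
        change ((((m : G)⁻¹ * g : G)) : G ⧸ N) = g
        rw [QuotientGroup.eq]
        have : ((m : G)⁻¹ * g)⁻¹ * g = g⁻¹ * (m : G) * g := by group
        rw [this]
        have h2 := ‹N.Normal›.conj_mem _ m.2 g⁻¹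
        simpa using h2
    refine solvable_of_ker_le_range N.subtype (QuotientGroup.mk' N) ?_
    rw [QuotientGroup.ker_mk', Subgroup.range_subtype]
  have hp2 : p = 2 := by
    by_contra h
    exact hns (solvable_of_odd S hp h hexp)
  subst hp2
  refine ⟨rfl, ?_⟩
  exact Cfsg.Agent.Lib.ExtPrim.Affine.main S (fun x => by rw [← two_nsmul]; exact hexp x) hns

end Cfsg.Agent.Lib.ExtPrim.AffineMain
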