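import Mathlib

/-!
# Extremely primitive groups: tools and the core lemma

`G` acts faithfully on `Ω`; `H` is the stabilizer of a point `α`, and it is primitive on each of its
orbits.  The core lemma: a non-abelian simple subgroup `T`, transitive, centralized by a transitive
subgroup `C`, whose `H`-conjugates are `T` or centralize `T`, cannot exist, given the odd order
theorem for `T`.
-/

set_option autoImplicit false

open MulAction

namespace Cfsg.Agent.Lib.ExtPrim.Core

universe u v

/-- The conjugate of a subgroup. -/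
def cj {G : Type u} [Group G] (g : G) (T : Subgroup G) : Subgroup G :=
  T.map (MulAut.conj g).toMonoidHom

theorem mem_cj {G : Type u} [Group G] {g a : G} {T : Subgroup G} :
    a ∈ cj g T ↔ g⁻¹ * a * g ∈ T := by
  unfold cj
  constructor
  · rintro ⟨b, hb, rfl⟩
    simpa [mul_assoc] using hb
  · intro h
    exact ⟨_, h, by simp [mul_assoc]⟩

theorem conj_mem_cj {G : Type u} [Group G] {g a : G} {T : Subgroup G} (ha : a ∈ T) :
    g * a * g⁻¹ ∈ cj g T := by
  rw [mem_cj]
  simpa [mul_assoc] using ha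

theorem cj_mul {G : Type u} [Group G] (g h : G) (T : Subgroup G) : cj (g * h) T = cj g (cj h T) := by
  ext a
  simp only [mem_cj, mul_inv_rev]
  have : h⁻¹ * g⁻¹ * a * (g * h) = h⁻¹ * (g⁻¹ * a * g) * h := by group
  rw [this]

theorem cj_one {G : Type u} [Group G] (T : Subgroup G) : cj 1 T = T := by
  ext a
  simp [mem_cj]

/-- The dichotomy for a primitive action and an invariant map. -/
theorem fiber_dichotomy {H X Y : Type*} [Group H] [MulAction H X] (hprim : IsPreprimitive H X)
    (f : X → Y) (hf : ∀ (h : H) (x y : X), f x = f y → f (h • x) = f (h • y)) (x₀ : X) :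
    (∀ x, f x = f x₀ → x = x₀) ∨ (∀ x, f x = f x₀) := by
  have hB : IsBlock H {x | f x = f x₀} := by
    rw [isBlock_iff_smul_eq_of_nonempty]
    rintro h ⟨y, hy1, hy2⟩
    obtain ⟨z, hz, rfl⟩ := hy1
    have hz' : f z = f x₀ := hz
    have hy2' : f (h • z) = f x₀ := hy2
    ext w
    constructor
    · rintro ⟨v, hv, rfl⟩
      have hv' : f v = f x₀ := hv
      change f (h • v) = f x₀
      rw [hf h v z (hv'.trans hz'.symm), hy2']
    · intro hw
      have hw' : f w = f x₀ := hw
      refine ⟨h⁻¹ • w, ?_, by simp⟩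
      change f (h⁻¹ • w) = f x₀
      have h1 : f w = f (h • z) := hw'.trans hy2'.symm
      have h2 := hf h⁻¹ w (h • z) h1
      rw [h2, inv_smul_smul, hz']
  rcases hB.subsingleton_or_eq_univ with h1 | h1
  · left
    intro x hx
    exact h1 hx rfl
  · right
    intro x
    have : x ∈ ({x | f x = f x₀} : Set X) := by
      rw [h1]
      exact Set.mem_univ x
    exact this

variable {G : Type u} [Group G] {Ω : Type v} [MulAction G Ω]

/-- Orbit form of the dichotomy: `f` on `Ω`, invariance on the orbit under `H = G_α`. -/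
theorem orbit_dichotomy {Y : Type*} (α ω : Ω)
    (hep : IsPreprimitive (stabilizer G α) (orbit (stabilizer G α) ω))
    (f : Ω → Y) (hf : ∀ (h : G), h • α = α → ∀ (x y : Ω), f x = f y → f (h • x) = f (h • y)) :
    (∀ h : G, h • α = α → f (h • ω) = f ω → h • ω = ω) ∨
    (∀ h : G, h • α = α → f (h • ω) = f ω) := by
  have hmem : ω ∈ orbit (stabilizer G α) ω := mem_orbit_self ω
  have := fiber_dichotomy hep (fun x => f (x : Ω))
    (fun h x y hxy => hf (h : G) h.2 x y hxy) ⟨ω, hmem⟩
  rcases this with h1 | h1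
  · left
    intro h hh hfh
    have hm : h • ω ∈ orbit (stabilizer G α) ω := ⟨⟨h, hh⟩, rfl⟩
    have := h1 ⟨h • ω, hm⟩ hfh
    exact congrArg Subtype.val this
  · right
    intro h hh
    have hm : h • ω ∈ orbit (stabilizer G α) ω := ⟨⟨h, hh⟩, rfl⟩
    exact h1 ⟨h • ω, hm⟩

/-- Commuting elements with the same image of `α` have the same power images. -/
theorem pow_smul_of_commute {a b : G} {α : Ω} (hc : a * b = b * a) (h : a • α = b • α) (n : ℕ) :
    a ^ n • α = b ^ n • α := by
  induction n with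
  | zero => simp
  | succ n ih =>
    have hc' : a ^ n * b = b * a ^ n := ((Commute.pow_left (show Commute a b from hc) n)).eq
    calc a ^ (n + 1) • α = a ^ n • (a • α) := by rw [pow_succ, mul_smul]
      _ = a ^ n • (b • α) := by rw [h]
      _ = (a ^ n * b) • α := by rw [mul_smul]
      _ = (b * a ^ n) • α := by rw [hc']
      _ = b • (a ^ n • α) := by rw [mul_smul]
      _ = b • (b ^ n • α) := by rw [ih]
      _ = b ^ (n + 1) • α := by rw [pow_succ', mul_smul]

/-- The `line` of an element. -/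
def line (α : Ω) (y : G) : Set Ω := Set.range (fun n : ℕ => y ^ n • α)

theorem smul_line {α : Ω} {h : G} (hh : h • α = α) (y : G) :
    (fun γ => h • γ) '' line α y = line α (h * y * h⁻¹) := by
  ext w
  constructor
  · rintro ⟨_, ⟨n, rfl⟩, rfl⟩
    refine ⟨n, ?_⟩
    change (h * y * h⁻¹) ^ n • α = h • y ^ n • α
    rw [conj_pow, mul_smul, mul_smul, inv_smul_eq_iff.mpr hh.symm]
  · rintro ⟨n, rfl⟩
    refine ⟨y ^ n • α, ⟨n, rfl⟩, ?_⟩
    change h • y ^ n • α = (h * y * h⁻¹) ^ n • α
    rw [conj_pow, mul_smul, mul_smul, inv_smul_eq_iff.mpr hh.symm]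

theorem line_eq_of_commute {a b : G} {α : Ω} (hc : a * b = b * a) (h : a • α = b • α) :
    line α a = line α b := by
  unfold line
  congr 1
  funext n
  exact pow_smul_of_commute hc h n


section core

variable [Finite G] [FaithfulSMul G Ω]

theorem line_inv (α : Ω) (x : G) : line α x⁻¹ = line α x := by
  have key : ∀ y : G, line α y⁻¹ ⊆ line α y := by
    rintro y _ ⟨n, rfl⟩
    have hpos := orderOf_pos y
    refine ⟨(orderOf y - 1) * n, ?_⟩
    change y ^ ((orderOf y - 1) * n) • α = y⁻¹ ^ n • α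
    congr 1
    have h3 : y ^ (orderOf y - 1) * y = 1 := by
      rw [← pow_succ, Nat.sub_add_cancel hpos, pow_orderOf_eq_one]
    have h5 : y ^ (orderOf y - 1) = y⁻¹ := eq_inv_of_mul_eq_one_left h3
    rw [pow_mul, h5]
  apply Set.Subset.antisymm (key x)
  have := key x⁻¹
  rwa [inv_inv] at this

/-- **The core lemma.** -/
theorem core (α : Ω)
    (hep : ∀ ω : Ω, IsPreprimitive (stabilizer G α) (orbit (stabilizer G α) ω))
    (T C : Subgroup G) (hTs : IsSimpleGroup T) (hTna : ¬ ∀ a b : T, a * b = b * a)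
    (hTt : ∀ ω : Ω, ∃ t ∈ T, t • α = ω)
    (hCt : ∀ ω : Ω, ∃ c ∈ C, c • α = ω) (hCT : ∀ c ∈ C, ∀ t ∈ T, c * t = t * c)
    (hfam : ∀ h : G, h • α = α → cj h T = T ∨ ∀ a ∈ cj h T, ∀ b ∈ T, a * b = b * a)
    (hFT : Odd (Nat.card T) → Group.IsSolvable T) : False := by
  classical
  -- `T` is semiregular
  have hsr : ∀ t ∈ T, t • α = α → t = 1 := by
    intro t ht hfix
    apply FaithfulSMul.eq_of_smul_eq_smul (α := Ω)
    intro ω
    obtain ⟨c, hc, rfl⟩ := hCt ω
    rw [one_smul, ← mul_smul, ← hCT c hc t ht, mul_smul, hfix]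
  have hreg : ∀ y ∈ T, ∀ y' ∈ T, y • α = y' • α → y = y' := by
    intro y hy y' hy' h
    have h1 : (y'⁻¹ * y) • α = α := by rw [mul_smul, h, inv_smul_smul]
    have h2 := hsr _ (T.mul_mem (T.inv_mem hy') hy) h1
    rw [inv_mul_eq_one] at h2
    exact h2.symm
  choose τ hτT hτ using hTt
  have hτeq : ∀ y ∈ T, τ (y • α) = y := fun y hy => hreg _ (hτT _) _ hy (hτ _)
  -- the invariant map
  let f : Ω → Set Ω := fun γ => line α (τ γ)
  have hfh : ∀ h : G, h • α = α → ∀ γ : Ω, f (h • γ) = (fun w => h • w) '' f γ := by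
    intro h hh γ
    change line α (τ (h • γ)) = (fun w => h • w) '' line α (τ γ)
    rw [smul_line hh]
    have ha : h * τ γ * h⁻¹ ∈ cj h T := conj_mem_cj (hτT γ)
    have hval : (h * τ γ * h⁻¹) • α = τ (h • γ) • α := by
      rw [hτ, mul_smul, mul_smul, inv_smul_eq_iff.mpr hh.symm, hτ]
    rcases hfam h hh with h1 | h1
    · rw [h1] at ha
      rw [hreg _ ha _ (hτT _) hval]
    · exact (line_eq_of_commute (h1 _ ha _ (hτT _)) hval).symm
  have hinv : ∀ h : G, h • α = α → ∀ x y : Ω, f x = f y → f (h • x) = f (h • y) := by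
    intro h hh x y hxy
    rw [hfh h hh, hfh h hh, hxy]
  -- the conjugations
  have hu : ∀ t ∈ T, ∃ u : G, u • α = α ∧ ∀ s ∈ T, u • (s • α) = (t * s * t⁻¹) • α := by
    intro t ht
    obtain ⟨c, hc, hcα⟩ := hCt (t • α)
    have h0 : (c⁻¹ * t) • α = α := by rw [mul_smul, ← hcα, inv_smul_smul]
    refine ⟨c⁻¹ * t, h0, fun s hs => ?_⟩
    have hcomm : c⁻¹ * (t * s * t⁻¹) = (t * s * t⁻¹) * c⁻¹ := by
      have h1 : Commute c (t * s * t⁻¹) := hCT c hc _ (T.mul_mem (T.mul_mem ht hs) (T.inv_mem ht))
      exact h1.inv_left.eq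
    calc (c⁻¹ * t) • s • α = (c⁻¹ * (t * s * t⁻¹) * t) • α := by
          rw [← mul_smul]; congr 1; group
      _ = ((t * s * t⁻¹) * c⁻¹ * t) • α := by rw [hcomm]
      _ = (t * s * t⁻¹) • (c⁻¹ * t) • α := by rw [← mul_smul]; congr 1; group
      _ = _ := by rw [h0]
  -- dichotomy
  have hcase : ∀ x ∈ T, x ≠ 1 → ∀ t ∈ T, t * x * t⁻¹ = x⁻¹ → x⁻¹ = x := by
    intro x hx hx1 t ht htx
    rcases orbit_dichotomy α (x • α) (hep _) f hinv with h1 | h1
    · obtain ⟨u, hu0, hu1⟩ := hu t ht
      have e1 : u • x • α = x⁻¹ • α := by rw [hu1 x hx, htx]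
      have e2 : f (u • x • α) = f (x • α) := by
        rw [e1]
        change line α (τ (x⁻¹ • α)) = line α (τ (x • α))
        rw [hτeq _ (T.inv_mem hx), hτeq _ hx, line_inv]
      have e3 := h1 u hu0 e2
      rw [e1] at e3
      exact hreg _ (T.inv_mem hx) _ hx e3
    · exfalso
      -- `⟨x⟩` is normal in `T`
      have hpow : ∀ t ∈ T, ∃ n : ℕ, t * x * t⁻¹ = x ^ n := by
        intro t ht
        obtain ⟨u, hu0, hu1⟩ := hu t ht
        have e1 := h1 u hu0
        rw [hu1 x hx] at e1
        have hmem : t * x * t⁻¹ ∈ T := T.mul_mem (T.mul_mem ht hx) (T.inv_mem ht)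
        have e2 : line α (t * x * t⁻¹) = line α x := by
          have := e1
          change line α (τ ((t * x * t⁻¹) • α)) = line α (τ (x • α)) at this
          rwa [hτeq _ hmem, hτeq _ hx] at this
        have e3 : (t * x * t⁻¹) • α ∈ line α (t * x * t⁻¹) := ⟨1, by simp⟩
        rw [e2] at e3
        obtain ⟨n, hn⟩ := e3
        refine ⟨n, ?_⟩
        exact (hreg _ (T.pow_mem hx n) _ hmem hn).symm
      let z : T := ⟨x, hx⟩
      have hN : (Subgroup.zpowers z).Normal := by
        constructor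
        intro a ha g
        obtain ⟨k, rfl⟩ := ha
        obtain ⟨n, hn⟩ := hpow g g.2
        have e : g * z * g⁻¹ = z ^ n := by
          apply Subtype.ext
          simpa [z] using hn
        refine ⟨(n : ℤ) * k, ?_⟩
        change z ^ ((n : ℤ) * k) = g * z ^ k * g⁻¹
        rw [← conj_zpow, e, zpow_mul, zpow_natCast]
      rcases hTs.eq_bot_or_eq_top_of_normal _ hN with h2 | h2
      · apply hx1
        have : z = 1 := Subgroup.zpowers_eq_bot.mp h2
        exact congrArg Subtype.val this
      · apply hTna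
        intro a b
        have ha : a ∈ Subgroup.zpowers z := by rw [h2]; trivial
        have hb : b ∈ Subgroup.zpowers z := by rw [h2]; trivial
        obtain ⟨i, rfl⟩ := ha
        obtain ⟨j, rfl⟩ := hb
        exact (Commute.zpow_zpow_self z i j).eq
  -- involutions commute
  have hcomm : ∀ a b : T, a ^ 2 = 1 → b ^ 2 = 1 → a * b = b * a := by
    intro a b ha hb
    by_cases hx : (a : G) * b = 1
    · have h1 : a * b = 1 := Subtype.ext hx
      have hb' : b = a⁻¹ := eq_inv_of_mul_eq_one_right h1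
      rw [hb', mul_inv_cancel, inv_mul_cancel]
    · have haa : a⁻¹ = a := inv_eq_of_mul_eq_one_left (by rw [← sq]; exact ha)
      have hbb : b⁻¹ = b := inv_eq_of_mul_eq_one_left (by rw [← sq]; exact hb)
      have h1 := hcase ((a : G) * b) (a * b).2 hx a a.2 (by
        have e1 : a * (a * b) * a⁻¹ = (a * b)⁻¹ := by
          rw [mul_inv_rev, hbb, haa, ← mul_assoc, ← sq, ha, one_mul]
        exact congrArg Subtype.val e1)
      have h2 : (a * b)⁻¹ = a * b := Subtype.ext h1
      rw [mul_inv_rev, hbb, haa] at h2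
      exact h2.symm
  -- no involution
  have hnoinv : ∀ a : T, a ^ 2 = 1 → a = 1 := by
    intro a ha
    by_contra ha1
    have hN : (Subgroup.normalClosure ({a} : Set T)).Normal := Subgroup.normalClosure_normal
    have hne : Subgroup.normalClosure ({a} : Set T) ≠ ⊥ := by
      intro h
      have : a ∈ Subgroup.normalClosure ({a} : Set T) :=
        Subgroup.subset_normalClosure (Set.mem_singleton a)
      rw [h, Subgroup.mem_bot] at this
      exact ha1 this
    have htop := (hTs.eq_bot_or_eq_top_of_normal _ hN).resolve_left hne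
    have hS : ∀ p ∈ Group.conjugatesOfSet ({a} : Set T), p ^ 2 = 1 := by
      intro p hp
      rw [Group.mem_conjugatesOfSet_iff] at hp
      obtain ⟨q, hq, hpq⟩ := hp
      rw [Set.mem_singleton_iff] at hq
      subst hq
      obtain ⟨c, rfl⟩ := isConj_iff.mp hpq
      rw [conj_pow, ha]
      simp
    have hcc : ∀ p ∈ Group.conjugatesOfSet ({a} : Set T),
        ∀ q ∈ Group.conjugatesOfSet ({a} : Set T), p * q = q * p :=
      fun p hp q hq => hcomm p q (hS p hp) (hS q hq)
    apply hTna
    intro x y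
    letI := Subgroup.closureCommGroupOfComm hcc
    have hx : x ∈ Subgroup.closure (Group.conjugatesOfSet ({a} : Set T)) := by
      change x ∈ Subgroup.normalClosure ({a} : Set T)
      rw [htop]; trivial
    have hy : y ∈ Subgroup.closure (Group.conjugatesOfSet ({a} : Set T)) := by
      change y ∈ Subgroup.normalClosure ({a} : Set T)
      rw [htop]; trivial
    have := mul_comm (⟨x, hx⟩ : Subgroup.closure (Group.conjugatesOfSet ({a} : Set T))) ⟨y, hy⟩
    exact congrArg Subtype.val this
  -- odd order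
  have hodd : Odd (Nat.card T) := by
    rw [← Nat.not_even_iff_odd, even_iff_two_dvd]
    intro h2
    haveI : Fact (Nat.Prime 2) := ⟨Nat.prime_two⟩
    obtain ⟨a, ha⟩ := exists_prime_orderOf_dvd_card' 2 h2
    have h1 : a ^ 2 = 1 := by rw [← ha]; exact pow_orderOf_eq_one a
    have h3 := hnoinv a h1
    rw [h3, orderOf_one] at ha
    omega
  haveI := hTs
  exact hTna ((IsSimpleGroup.comm_iff_isSolvable (G := T)).mpr (hFT hodd))

end core

end Cfsg.Agent.Lib.ExtPrim.Core
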