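import Cfsg.Agent.Lib.ExtPrim.Core
import Cfsg.Agent.Lib.CharSimple.Forward
import Cfsg.Agent.Lib.Perm.Normal
import Cfsg.Agent.Lib.PermRec.Socle

/-!
# Extremely primitive groups are affine or almost simple

Given the odd order theorem for subgroups, a finite faithful primitive group in which each point
stabilizer is primitive on each of its orbits has a non-trivial abelian semiregular normal subgroup
or a non-abelian simple normal subgroup with trivial centralizer.
-/

set_option autoImplicit false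

open MulAction
open Cfsg.Agent.Lib.ExtPrim.Core

namespace Cfsg.Agent.Lib.ExtPrim.Main

universe u v

variable {G : Type u} [Group G]

theorem cj_inv_cj (g : G) (A : Subgroup G) : cj g⁻¹ (cj g A) = A := by
  rw [← cj_mul, inv_mul_cancel, cj_one]

theorem cj_cj_inv (g : G) (A : Subgroup G) : cj g (cj g⁻¹ A) = A := by
  rw [← cj_mul, mul_inv_cancel, cj_one]

theorem cj_mono (g : G) {A B : Subgroup G} (h : A ≤ B) : cj g A ≤ cj g B := by
  intro a ha
  rw [mem_cj] at ha ⊢
  exact h ha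

/-- The normalizer, in terms of `cj`. -/
def nz (S : Subgroup G) : Subgroup G where
  carrier := {g | cj g S = S}
  mul_mem' := by
    intro a b ha hb
    change cj a S = S at ha
    change cj b S = S at hb
    change cj (a * b) S = S
    rw [cj_mul, hb, ha]
  one_mem' := cj_one S
  inv_mem' := by
    intro a ha
    change cj a S = S at ha
    change cj a⁻¹ S = S
    conv_lhs => rw [← ha]
    exact cj_inv_cj a S

theorem mem_nz {S : Subgroup G} {g : G} : g ∈ nz S ↔ cj g S = S := Iff.rfl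

/-- Non-trivial subgroups of `M` normalized by `M`. -/
structure Adm (M T : Subgroup G) : Prop where
  ne : T ≠ ⊥
  le : T ≤ M
  nor : M ≤ nz T

/-- Minimal ones. -/
def IsMinAdm (M T : Subgroup G) : Prop := Adm M T ∧ ∀ S, Adm M S → S ≤ T → S = T

theorem Adm.cj {M T : Subgroup G} (hM : M.Normal) (h : Adm M T) (g : G) : Adm M (cj g T) where
  ne := by
    intro hb
    apply h.ne
    rw [← cj_inv_cj g T, hb]
    rw [eq_bot_iff]
    intro a ha
    rw [mem_cj, Subgroup.mem_bot] at ha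
    simpa using ha
  le := by
    intro a ha
    rw [mem_cj] at ha
    have h1 := h.le ha
    have h2 := hM.conj_mem _ h1 g
    simpa [mul_assoc] using h2
  nor := by
    intro m hm
    rw [mem_nz]
    have h1 : g⁻¹ * m * g ∈ M := by
      have := hM.conj_mem _ hm g⁻¹
      simpa [mul_assoc] using this
    have h2 := h.nor h1
    rw [mem_nz] at h2
    have e : m * g = g * (g⁻¹ * m * g) := by group
    rw [← cj_mul, e, cj_mul, h2]

theorem IsMinAdm.cj {M T : Subgroup G} (hM : M.Normal) (h : IsMinAdm M T) (g : G) :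
    IsMinAdm M (cj g T) := by
  refine ⟨h.1.cj hM g, fun S hS hle => ?_⟩
  have h1 := h.2 (Core.cj g⁻¹ S) (hS.cj hM g⁻¹) (by
    have := cj_mono g⁻¹ hle
    rwa [cj_inv_cj] at this)
  rw [← h1, cj_cj_inv]

theorem nor_mem {S : Subgroup G} {g a : G} (hg : g ∈ nz S) (ha : a ∈ S) : g * a * g⁻¹ ∈ S := by
  have h : Core.cj g S = S := hg
  rw [← h]
  exact conj_mem_cj ha

/-- Two minimal ones coincide or meet trivially and commute. -/
theorem eq_or_commute {M A B : Subgroup G} (hA : IsMinAdm M A) (hB : IsMinAdm M B) :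
    A = B ∨ (A ⊓ B = ⊥ ∧ ∀ a ∈ A, ∀ b ∈ B, a * b = b * a) := by
  by_cases hAB : A ⊓ B = ⊥
  · right
    refine ⟨hAB, fun a ha b hb => ?_⟩
    have h1 : a * b * a⁻¹ * b⁻¹ ∈ A := by
      have := nor_mem (hA.1.nor (hB.1.le hb)) (A.inv_mem ha)
      have h2 := A.mul_mem ha this
      simpa [mul_assoc] using h2
    have h2 : a * b * a⁻¹ * b⁻¹ ∈ B := by
      have := nor_mem (hB.1.nor (hA.1.le ha)) hb
      exact B.mul_mem this (B.inv_mem hb)
    have h3 : a * b * a⁻¹ * b⁻¹ ∈ A ⊓ B := ⟨h1, h2⟩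
    rw [hAB, Subgroup.mem_bot] at h3
    have h4 : a * b * a⁻¹ = b := mul_inv_eq_one.mp h3
    exact mul_inv_eq_iff_eq_mul.mp h4
  · left
    have hAd : Adm M (A ⊓ B) := by
      refine ⟨hAB, inf_le_left.trans hA.1.le, fun m hm => ?_⟩
      rw [mem_nz]
      have h1 : Core.cj m A = A := hA.1.nor hm
      have h2 : Core.cj m B = B := hB.1.nor hm
      ext a
      rw [mem_cj, Subgroup.mem_inf, Subgroup.mem_inf, ← mem_cj, ← mem_cj, h1, h2]
    have e1 := hA.2 _ hAd inf_le_left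
    have e2 := hB.2 _ hAd inf_le_right
    exact e1.symm.trans e2

section

variable {M T : Subgroup G}

/-- `M` is contained in each subgroup containing the conjugates of `T`. -/
theorem le_of_conj_le (hM : Cfsg.Agent.Lib.CharSimple.Forward.IsMinNormal M) (hT : Adm M T)
    {S : Subgroup G} (hS : ∀ g, cj g T ≤ S) : M ≤ S := by
  have hnc : Subgroup.normalClosure (T : Set G) ≤ M :=
    haveI := hM.1; Subgroup.normalClosure_le_normal hT.le
  have h1 : T ≤ Subgroup.normalClosure (T : Set G) := Subgroup.subset_normalClosure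
  rcases hM.2.2 _ Subgroup.normalClosure_normal hnc with h2 | h2
  · exact absurd (le_bot_iff.mp (h2 ▸ h1)) hT.ne
  · rw [← h2]
    unfold Subgroup.normalClosure
    rw [Subgroup.closure_le]
    intro p hp
    rw [Group.mem_conjugatesOfSet_iff] at hp
    obtain ⟨q, hq, hpq⟩ := hp
    obtain ⟨c, rfl⟩ := isConj_iff.mp hpq
    exact hS c (conj_mem_cj hq)

/-- `T` is simple. -/
theorem isSimple (hM : Cfsg.Agent.Lib.CharSimple.Forward.IsMinNormal M) (hT : IsMinAdm M T) :
    IsSimpleGroup T := by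
  haveI : Nontrivial T := by
    rw [Subgroup.nontrivial_iff_ne_bot]
    exact hT.1.ne
  refine ⟨fun R hR => ?_⟩
  by_cases hb : R = ⊥
  · exact Or.inl hb
  right
  have hle : R.map T.subtype ≤ T := by
    rintro _ ⟨r, _, rfl⟩
    exact r.2
  have hne : R.map T.subtype ≠ ⊥ := by
    intro h
    apply hb
    exact (Subgroup.map_eq_bot_iff_of_injective _ T.subtype_injective).mp h
  have hnor : M ≤ nz (R.map T.subtype) := by
    apply le_of_conj_le hM hT.1
    intro g a ha
    have hA := hT.cj hM.1 g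
    have hnorm : ∀ r ∈ R.map T.subtype, ∀ b ∈ T, b * r * b⁻¹ ∈ R.map T.subtype := by
      rintro _ ⟨r, hr, rfl⟩ b hb
      have := hR.conj_mem r hr ⟨b, hb⟩
      exact ⟨_, this, rfl⟩
    rw [mem_nz]
    rcases eq_or_commute hA hT with h1 | ⟨_, h1⟩
    · have haT : a ∈ T := h1 ▸ ha
      ext r
      rw [mem_cj]
      constructor
      · intro hr
        have := hnorm _ hr a haT
        simpa [mul_assoc] using this
      · intro hr
        have := hnorm _ hr a⁻¹ (T.inv_mem haT)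
        simpa using this
    · have hc : ∀ b ∈ T, a⁻¹ * b * a = b := by
        intro b hb
        rw [mul_assoc, ← h1 a ha b hb, inv_mul_cancel_left]
      ext r
      rw [mem_cj]
      constructor
      · intro hr
        have h3 := hc _ (hle hr)
        have e : a⁻¹ * (a⁻¹ * r * a) * a = a⁻¹ * r * a := h3
        have e2 : a⁻¹ * r * a = r := by
          have := mul_left_cancel (a := a⁻¹) (b := a⁻¹ * r * a) (c := r) (by
            rw [← mul_right_cancel_iff (a := a)]
            rw [e])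
          exact this
        rwa [e2] at hr
      · intro hr
        rw [hc _ (hle hr)]
        exact hr
  have hAd : Adm M (R.map T.subtype) := ⟨hne, hle.trans hT.1.le, hnor⟩
  have h2 := hT.2 _ hAd hle
  rw [eq_top_iff]
  intro t _
  have ht : (t : G) ∈ R.map T.subtype := by
    rw [h2]; exact t.2
  obtain ⟨r, hr, hrt⟩ := ht
  have : r = t := Subtype.ext hrt
  rwa [← this]

/-- `T` is non-abelian when `M` is. -/
theorem not_comm (hM : Cfsg.Agent.Lib.CharSimple.Forward.IsMinNormal M) (hT : IsMinAdm M T)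
    (hMna : ¬ ∀ a ∈ M, ∀ b ∈ M, a * b = b * a) : ¬ ∀ a b : T, a * b = b * a := by
  intro hc
  have hcT : ∀ a ∈ T, ∀ b ∈ T, a * b = b * a := by
    intro a ha b hb
    exact congrArg Subtype.val (hc ⟨a, ha⟩ ⟨b, hb⟩)
  have hcc : ∀ g g', ∀ a ∈ cj g T, ∀ b ∈ cj g' T, a * b = b * a := by
    intro g g' a ha b hb
    rcases eq_or_commute (hT.cj hM.1 g) (hT.cj hM.1 g') with h1 | ⟨_, h1⟩
    · rw [← h1] at hb
      rw [mem_cj] at ha hb
      have := hcT _ ha _ hb
      have e1 : g⁻¹ * a * g * (g⁻¹ * b * g) = g⁻¹ * (a * b) * g := by group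
      have e2 : g⁻¹ * b * g * (g⁻¹ * a * g) = g⁻¹ * (b * a) * g := by group
      rw [e1, e2] at this
      exact mul_left_cancel (mul_right_cancel this)
    · exact h1 a ha b hb
  apply hMna
  intro a ha b hb
  have h1 : ∀ g, M ≤ Subgroup.centralizer (cj g T : Set G) := by
    intro g
    apply le_of_conj_le hM hT.1
    intro g' x hx
    rw [Subgroup.mem_centralizer_iff]
    intro y hy
    exact hcc g g' y hy x hx
  have h2 : M ≤ Subgroup.centralizer (M : Set G) := by
    apply le_of_conj_le hM hT.1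
    intro g x hx
    rw [Subgroup.mem_centralizer_iff]
    intro y hy
    exact (Subgroup.mem_centralizer_iff.mp (h1 g hy) x hx).symm
  exact (Subgroup.mem_centralizer_iff.mp (h2 ha) b hb).symm

end

section action

variable {Ω : Type v} [MulAction G Ω]

/-- Every conjugate is a conjugate under the stabilizer. -/
theorem exists_stab_conj {M T : Subgroup G} (hMn : M.Normal) (hT : Adm M T) (α : Ω)
    (hMt : ∀ ω : Ω, ∃ m ∈ M, m • α = ω) (g : G) : ∃ h : G, h • α = α ∧ cj g T = cj h T := by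
  obtain ⟨m, hm, hmα⟩ := hMt (g • α)
  refine ⟨m⁻¹ * g, by rw [mul_smul, ← hmα, inv_smul_smul], ?_⟩
  have h1 := (hT.cj hMn (m⁻¹ * g)).nor hm
  rw [mem_nz] at h1
  conv_rhs => rw [← h1]
  rw [← cj_mul, mul_inv_cancel_left]

end action

section caseA

variable [Finite G] {Ω : Type v} [MulAction G Ω] [FaithfulSMul G Ω]

theorem caseA (hprim : IsPreprimitive G Ω) (α : Ω)
    (hep : ∀ ω : Ω, IsPreprimitive (stabilizer G α) (orbit (stabilizer G α) ω))
    (M T : Subgroup G) (hMn : M.Normal) (hT : IsMinAdm M T)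
    (hMt : ∀ ω : Ω, ∃ m ∈ M, m • α = ω) (hMna : ¬ ∀ a ∈ M, ∀ b ∈ M, a * b = b * a)
    (hsr : ∀ m ∈ M, m • α = α → m = 1) (h₀ : G) (hh₀ : h₀ • α = α) (hne : cj h₀ T ≠ T) : False := by
  classical
  have hreg : ∀ m ∈ M, ∀ m' ∈ M, m • α = m' • α → m = m' := by
    intro m hm m' hm' h
    have h1 : (m'⁻¹ * m) • α = α := by rw [mul_smul, h, inv_smul_smul]
    have h2 := hsr _ (M.mul_mem (M.inv_mem hm') hm) h1
    rw [inv_mul_eq_one] at h2
    exact h2.symm
  have hconjM : ∀ g : G, ∀ a ∈ M, g * a * g⁻¹ ∈ M := fun g a ha => hMn.conj_mem a ha g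
  -- a non-trivial element of `T`
  obtain ⟨x, hxT, hx1⟩ : ∃ x ∈ T, x ≠ 1 := by
    by_contra hcon
    push Not at hcon
    exact hT.1.ne ((Subgroup.eq_bot_iff_forall _).mpr hcon)
  have hxM : x ∈ M := hT.1.le hxT
  -- the map to sets of conjugates
  let f : Ω → Set (Subgroup G) := fun γ => {A | (∃ g, A = cj g T) ∧ ∃ a ∈ A, a • α = γ}
  have hfA : ∀ h : G, h • α = α → ∀ (A : Subgroup G) (γ : Ω), A ∈ f γ → cj h A ∈ f (h • γ) := by
    rintro h hh A γ ⟨⟨g, rfl⟩, a, ha, rfl⟩
    refine ⟨⟨h * g, (cj_mul h g T).symm⟩, h * a * h⁻¹, conj_mem_cj ha, ?_⟩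
    rw [mul_smul, mul_smul, inv_smul_eq_iff.mpr hh.symm]
  have hsub : ∀ h : G, h • α = α → ∀ x y : Ω, f x = f y → f (h • x) ⊆ f (h • y) := by
    intro h hh x y hxy A hA
    have hh' : h⁻¹ • α = α := inv_smul_eq_iff.mpr hh.symm
    have h1 := hfA h⁻¹ hh' A _ hA
    rw [inv_smul_smul, hxy] at h1
    have h2 := hfA h hh _ _ h1
    rwa [cj_cj_inv] at h2
  have hinv : ∀ h : G, h • α = α → ∀ x y : Ω, f x = f y → f (h • x) = f (h • y) := by
    intro h hh x y hxy
    exact Set.Subset.antisymm (hsub h hh x y hxy) (hsub h hh y x hxy.symm)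
  have hsingle : ∀ y ∈ T, y ≠ 1 → f (y • α) = {T} := by
    intro y hy hy1
    ext A
    rw [Set.mem_singleton_iff]
    constructor
    · rintro ⟨⟨g, rfl⟩, a, ha, hay⟩
      have hayy : a = y :=
        hreg a ((hT.cj hMn g).1.le ha) y (hT.1.le hy) hay
      rcases eq_or_commute (hT.cj hMn g) hT with h1 | ⟨h1, _⟩
      · exact h1
      · exfalso
        have : y ∈ cj g T ⊓ T := ⟨hayy ▸ ha, hy⟩
        rw [h1, Subgroup.mem_bot] at this
        exact hy1 this
    · rintro rfl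
      exact ⟨⟨1, (cj_one A).symm⟩, y, hy, rfl⟩
  -- `N_H(T)` centralizes `x`
  have hfix : ∀ h : G, h • α = α → cj h T = T → h * x * h⁻¹ = x := by
    rcases orbit_dichotomy α (x • α) (hep _) f hinv with h1 | h1
    · intro h hh hn
      have hmem : h * x * h⁻¹ ∈ T := by
        have := conj_mem_cj (g := h) hxT
        rwa [hn] at this
      have hne1 : h * x * h⁻¹ ≠ 1 := by
        intro h2
        apply hx1
        have : x = h⁻¹ * (h * x * h⁻¹) * h := by group
        rw [this, h2]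
        group
      have e0 : (h * x * h⁻¹) • α = h • x • α := by
        rw [mul_smul, mul_smul, inv_smul_eq_iff.mpr hh.symm]
      have e1 : f (h • x • α) = f (x • α) := by
        rw [← e0, hsingle _ hmem hne1, hsingle _ hxT hx1]
      have e2 := h1 h hh e1
      rw [← e0] at e2
      exact hreg _ (hT.1.le hmem) _ hxM e2
    · exfalso
      have e1 := h1 h₀ hh₀
      have hmem : T ∈ f (x • α) := by
        rw [hsingle _ hxT hx1]; rfl
      rw [← e1] at hmem
      obtain ⟨_, a, ha, hay⟩ := hmem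
      have e0 : (h₀ * x * h₀⁻¹) • α = h₀ • x • α := by
        rw [mul_smul, mul_smul, inv_smul_eq_iff.mpr hh₀.symm]
      rw [← e0] at hay
      have e2 := hreg a (hT.1.le ha) _ (hconjM _ _ hxM) hay
      rcases eq_or_commute (hT.cj hMn h₀) hT with h2 | ⟨h2, _⟩
      · exact hne h2
      · have : a ∈ cj h₀ T ⊓ T := ⟨by rw [e2]; exact conj_mem_cj hxT, ha⟩
        rw [h2, Subgroup.mem_bot] at this
        rw [this] at e2
        apply hx1
        have e3 : x = h₀⁻¹ * (h₀ * x * h₀⁻¹) * h₀ := by group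
        rw [e3, ← e2]
        group
  -- the abelian invariant subgroup
  let X : Set G := {y | ∃ h : G, h • α = α ∧ y = h * x * h⁻¹}
  have hXc : ∀ y ∈ X, ∀ z ∈ X, y * z = z * y := by
    rintro _ ⟨h₁, hh₁, rfl⟩ _ ⟨h₂, hh₂, rfl⟩
    rcases eq_or_commute (hT.cj hMn h₁) (hT.cj hMn h₂) with h3 | ⟨_, h3⟩
    · have e1 : (h₂⁻¹ * h₁) • α = α := by
        rw [mul_smul, hh₁, inv_smul_eq_iff.mpr hh₂.symm]
      have e2 : cj (h₂⁻¹ * h₁) T = T := by
        rw [cj_mul, h3, cj_inv_cj]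
      have e3 := hfix _ e1 e2
      have e4 : h₁ * x * h₁⁻¹ = h₂ * x * h₂⁻¹ := by
        conv_rhs => rw [← e3]
        group
      rw [e4]
    · exact h3 _ (conj_mem_cj hxT) _ (conj_mem_cj hxT)
  let D : Subgroup G := Subgroup.closure X
  have hDc : ∀ a ∈ D, ∀ b ∈ D, a * b = b * a := by
    intro a ha b hb
    letI := Subgroup.closureCommGroupOfComm hXc
    exact congrArg Subtype.val (mul_comm (⟨a, ha⟩ : Subgroup.closure X) ⟨b, hb⟩)
  have hDM : D ≤ M := by
    rw [Subgroup.closure_le]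
    rintro _ ⟨h, _, rfl⟩
    exact hconjM _ _ hxM
  have hDH : ∀ h : G, h • α = α → ∀ d ∈ D, h * d * h⁻¹ ∈ D := by
    intro h hh
    have : D ≤ D.comap (MulAut.conj h).toMonoidHom := by
      rw [Subgroup.closure_le]
      rintro _ ⟨h₁, hh₁, rfl⟩
      apply Subgroup.subset_closure
      refine ⟨h * h₁, by rw [mul_smul, hh₁, hh], ?_⟩
      simp [mul_assoc]
    intro d hd
    have h2 := this hd
    simpa using h2
  have hxD : x ∈ D := Subgroup.subset_closure ⟨1, one_smul _ _, by simp⟩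
  -- the block
  let B : Set Ω := {γ | ∃ d ∈ D, d • α = γ}
  have hdec : ∀ g : G, ∃ m ∈ M, ∃ h : G, h • α = α ∧ g = m * h := by
    intro g
    obtain ⟨m, hm, hmα⟩ := hMt (g • α)
    exact ⟨m, hm, m⁻¹ * g, by rw [mul_smul, ← hmα, inv_smul_smul], by group⟩
  have hsm : ∀ h : G, h • α = α → ∀ d : G, h • d • α = (h * d * h⁻¹) • α := by
    intro h hh d
    rw [mul_smul, mul_smul, inv_smul_eq_iff.mpr hh.symm]
  have hBsub : ∀ g : G, ∀ m ∈ D, ∀ h : G, h • α = α → g = m * h → ∀ γ ∈ B, g • γ ∈ B := by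
    rintro g m hm h hh rfl _ ⟨d, hd, rfl⟩
    refine ⟨m * (h * d * h⁻¹), D.mul_mem hm (hDH h hh d hd), ?_⟩
    rw [mul_smul m, ← hsm h hh, mul_smul m h]
  have hblock : IsBlock G B := by
    rw [isBlock_iff_smul_eq_of_nonempty]
    rintro g ⟨w, ⟨γ, ⟨d₁, hd₁, rfl⟩, rfl⟩, ⟨d₂, hd₂, hw⟩⟩
    obtain ⟨m, hm, h, hh, rfl⟩ := hdec g
    have hw' : (m * (h * d₁ * h⁻¹)) • α = d₂ • α := by
      rw [hw]
      change _ = (m * h) • d₁ • α
      rw [mul_smul m, ← hsm h hh, mul_smul m h]
    have e1 : m * (h * d₁ * h⁻¹) = d₂ :=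
      hreg _ (M.mul_mem hm (hDM (hDH h hh _ hd₁))) _ (hDM hd₂) hw'
    have hmD : m ∈ D := by
      have : m = d₂ * (h * d₁ * h⁻¹)⁻¹ := by
        rw [← e1]; group
      rw [this]
      exact D.mul_mem hd₂ (D.inv_mem (hDH h hh _ hd₁))
    ext w'
    constructor
    · rintro ⟨γ', hγ', rfl⟩
      exact hBsub _ m hmD h hh rfl γ' hγ'
    · intro hw'
      refine ⟨(m * h)⁻¹ • w', ?_, smul_inv_smul _ _⟩
      have hh' : h⁻¹ • α = α := inv_smul_eq_iff.mpr hh.symm
      refine hBsub _ (h⁻¹ * m⁻¹ * h) ?_ h⁻¹ hh' (by group) _ hw'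
      have := hDH h⁻¹ hh' m⁻¹ (D.inv_mem hmD)
      simpa using this
  rcases hblock.subsingleton_or_eq_univ with h1 | h1
  · have h2 : α ∈ B := ⟨1, D.one_mem, one_smul _ _⟩
    have h3 : x • α ∈ B := ⟨x, hxD, rfl⟩
    exact hx1 (hsr x hxM (h1 h3 h2))
  · apply hMna
    have hMD : M ≤ D := by
      intro m hm
      have h2 : m • α ∈ B := by rw [h1]; trivial
      obtain ⟨d, hd, hdm⟩ := h2
      rw [← hreg d (hDM hd) m hm hdm]
      exact hd
    intro a ha b hb
    exact hDc a (hMD ha) b (hMD hb)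

/-- Elements of the set stabilizer. -/
def setStab (S : Set Ω) : Subgroup G where
  carrier := {g | ∀ γ, g • γ ∈ S ↔ γ ∈ S}
  mul_mem' := by
    intro a b ha hb γ
    rw [mul_smul, ha, hb]
  one_mem' := by
    intro γ
    rw [one_smul]
  inv_mem' := by
    intro a ha γ
    rw [← ha (a⁻¹ • γ), smul_inv_smul]

theorem caseB (hprim : IsPreprimitive G Ω) (α : Ω)
    (hep : ∀ ω : Ω, IsPreprimitive (stabilizer G α) (orbit (stabilizer G α) ω))
    (M T : Subgroup G) (hM : Cfsg.Agent.Lib.CharSimple.Forward.IsMinNormal M) (hT : IsMinAdm M T)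
    (hTs : IsSimpleGroup T) (hTna : ¬ ∀ a b : T, a * b = b * a)
    (hFT : Odd (Nat.card T) → Group.IsSolvable T)
    (hMt : ∀ ω : Ω, ∃ m ∈ M, m • α = ω)
    (m₀ : G) (hm₀ : m₀ ∈ M) (hm₀1 : m₀ ≠ 1) (hm₀α : m₀ • α = α)
    (h₀ : G) (hh₀ : h₀ • α = α) (hne : cj h₀ T ≠ T) : False := by
  classical
  have hMn := hM.1
  have hconjM : ∀ g : G, ∀ a ∈ M, g * a * g⁻¹ ∈ M := fun g a ha => hMn.conj_mem a ha g
  -- step 1
  let F : Ω → Subgroup G := fun γ => M ⊓ stabilizer G γ
  have hFg : ∀ (g : G) (γ : Ω), F (g • γ) = cj g (F γ) := by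
    intro g γ
    ext a
    rw [mem_cj]
    constructor
    · rintro ⟨h1, h2⟩
      refine ⟨?_, ?_⟩
      · have := hconjM g⁻¹ a h1
        simpa using this
      · have h3 : a • g • γ = g • γ := h2
        change (g⁻¹ * a * g) • γ = γ
        rw [mul_smul, mul_smul, h3, inv_smul_smul]
    · rintro ⟨h1, h2⟩
      refine ⟨?_, ?_⟩
      · have := hconjM g _ h1
        have e : g * (g⁻¹ * a * g) * g⁻¹ = a := by group
        rwa [e] at this
      · have h3 : (g⁻¹ * a * g) • γ = γ := h2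
        change a • g • γ = g • γ
        have e : a * g = g * (g⁻¹ * a * g) := by group
        rw [← mul_smul, e, mul_smul, h3]
  have hstep1 : ∀ β : Ω, (∀ k ∈ M, k • α = α → k • β = β) → β = α := by
    intro β hβ
    rcases fiber_dichotomy hprim F (by
      intro g x y hxy
      rw [hFg, hFg, hxy]) α with h1 | h1
    · apply h1
      obtain ⟨m, hm, hmα⟩ := hMt β
      have hle : F α ≤ F β := fun k hk => ⟨hk.1, hβ k hk.1 hk.2⟩
      have hcard : Nat.card (F β) = Nat.card (F α) := by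
        rw [← hmα, hFg]
        exact Nat.card_congr (MulEquiv.subgroupMap (MulAut.conj m) (F α)).toEquiv.symm
      exact (Subgroup.eq_of_le_of_card_ge hle hcard.le).symm
    · exfalso
      apply hm₀1
      apply FaithfulSMul.eq_of_smul_eq_smul (α := Ω)
      intro ω
      have h2 : m₀ ∈ F α := ⟨hm₀, hm₀α⟩
      rw [← h1 ω] at h2
      rw [one_smul]
      exact h2.2
  -- step 2
  let f : Ω → Set Ω := fun γ => {δ | ∃ k ∈ M, k • α = α ∧ k • γ = δ}
  have hsub : ∀ h : G, h • α = α → ∀ x y : Ω, f x = f y → f (h • x) ⊆ f (h • y) := by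
    rintro h hh x y hxy δ ⟨k, hk, hkα, rfl⟩
    have hh' : h⁻¹ • α = α := inv_smul_eq_iff.mpr hh.symm
    have h1 : h⁻¹ • k • h • x ∈ f x := by
      refine ⟨h⁻¹ * k * h, ?_, ?_, ?_⟩
      · have := hconjM h⁻¹ k hk
        simpa using this
      · rw [mul_smul, mul_smul, hh, hkα, hh']
      · rw [mul_smul, mul_smul]
    rw [hxy] at h1
    obtain ⟨k', hk', hk'α, hk'y⟩ := h1
    refine ⟨h * k' * h⁻¹, hconjM _ _ hk', ?_, ?_⟩
    · rw [mul_smul, mul_smul, hh', hk'α, hh]
    · rw [mul_smul, mul_smul, inv_smul_smul, hk'y, smul_inv_smul]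
  have hinv : ∀ h : G, h • α = α → ∀ x y : Ω, f x = f y → f (h • x) = f (h • y) := by
    intro h hh x y hxy
    exact Set.Subset.antisymm (hsub h hh x y hxy) (hsub h hh y x hxy.symm)
  have hstar : ∀ β : Ω, β ≠ α → ∀ h : G, h • α = α → ∃ k ∈ M, k • α = α ∧ k • β = h • β := by
    intro β hβ h hh
    rcases orbit_dichotomy α β (hep _) f hinv with h1 | h1
    · exfalso
      apply hβ
      apply hstep1
      intro k hk hkα
      apply h1 k hkα
      ext δ
      constructor
      · rintro ⟨k', hk', hk'α, rfl⟩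
        exact ⟨k' * k, M.mul_mem hk' hk, by rw [mul_smul, hkα, hk'α], by rw [mul_smul]⟩
      · rintro ⟨k', hk', hk'α, rfl⟩
        refine ⟨k' * k⁻¹, M.mul_mem hk' (M.inv_mem hk), ?_, ?_⟩
        · rw [mul_smul, inv_smul_eq_iff.mpr hkα.symm, hk'α]
        · rw [mul_smul, inv_smul_smul]
    · have h2 : h • β ∈ f (h • β) := ⟨1, M.one_mem, one_smul _ _, one_smul _ _⟩
      rw [h1 h hh] at h2
      exact h2
  -- step 3
  have hstep3 : ∀ A : Subgroup G, IsMinAdm M A → ∀ h : G, h • α = α → ∀ a ∈ A,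
      ∃ a' ∈ cj h A, a' • α = a • α := by
    intro A hA h hh a ha
    by_cases hfa : a • α = α
    · exact ⟨1, Subgroup.one_mem _, by rw [one_smul, hfa]⟩
    have hh' : h⁻¹ • α = α := inv_smul_eq_iff.mpr hh.symm
    have e0 : (h * a * h⁻¹) • α = h • a • α := by
      rw [mul_smul, mul_smul, hh']
    have hβ : h • a • α ≠ α := by
      intro e
      apply hfa
      calc a • α = h⁻¹ • h • a • α := (inv_smul_smul h _).symm
        _ = h⁻¹ • α := by rw [e]
        _ = α := hh'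
    obtain ⟨k, hk, hkα, hkβ⟩ := hstar _ hβ h⁻¹ hh'
    rw [inv_smul_smul] at hkβ
    refine ⟨k * (h * a * h⁻¹) * k⁻¹, nor_mem ((hA.cj hMn h).1.nor hk) (conj_mem_cj ha), ?_⟩
    rw [mul_smul, mul_smul, inv_smul_eq_iff.mpr hkα.symm, e0, hkβ]
  -- step 4
  have hstep4 : ∀ g₁ g₂ : G, ∀ a ∈ cj g₁ T, ∃ a' ∈ cj g₂ T, a' • α = a • α := by
    intro g₁ g₂ a ha
    obtain ⟨h, hh, e⟩ := exists_stab_conj hMn (hT.cj hMn g₁).1 α hMt (g₂ * g₁⁻¹)
    have e' : cj g₂ T = cj h (cj g₁ T) := by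
      rw [← e, ← cj_mul]
      congr 1
      group
    rw [e']
    exact hstep3 _ (hT.cj hMn g₁) h hh a ha
  let S : Set Ω := {γ | ∃ t ∈ T, t • α = γ}
  have hS : ∀ g : G, ∀ γ : Ω, γ ∈ S ↔ ∃ a ∈ cj g T, a • α = γ := by
    intro g γ
    constructor
    · rintro ⟨t, ht, rfl⟩
      have ht' : t ∈ cj 1 T := by rwa [cj_one]
      exact hstep4 1 g t ht'
    · rintro ⟨a, ha, rfl⟩
      obtain ⟨t, ht, hta⟩ := hstep4 g 1 a ha
      rw [cj_one] at ht
      exact ⟨t, ht, hta⟩
  have hMS : M ≤ setStab S := by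
    apply le_of_conj_le hM hT.1
    intro g a ha γ
    rw [hS g, hS g]
    constructor
    · rintro ⟨b, hb, hba⟩
      refine ⟨a⁻¹ * b, Subgroup.mul_mem _ (Subgroup.inv_mem _ ha) hb, ?_⟩
      rw [mul_smul, hba, inv_smul_smul]
    · rintro ⟨b, hb, rfl⟩
      exact ⟨a * b, Subgroup.mul_mem _ ha hb, mul_smul _ _ _⟩
  have hStop : ∀ ω : Ω, ω ∈ S := by
    intro ω
    obtain ⟨m, hm, rfl⟩ := hMt ω
    rw [hMS hm α]
    exact ⟨1, T.one_mem, one_smul _ _⟩
  refine core α hep T (cj h₀ T) hTs hTna hStop ?_ ?_ ?_ hFT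
  · intro ω
    exact (hS h₀ ω).mp (hStop ω)
  · intro c hc t ht
    rcases eq_or_commute (hT.cj hMn h₀) hT with h1 | ⟨_, h1⟩
    · exact absurd h1 hne
    · exact h1 c hc t ht
  · intro h hh
    rcases eq_or_commute (hT.cj hMn h) hT with h1 | ⟨_, h1⟩
    · exact Or.inl h1
    · exact Or.inr h1

/-- **Main theorem**, given the odd order theorem for subgroups of `G`. -/
theorem main [Fintype Ω] (hΩ : 2 ≤ Fintype.card Ω) (hprim : IsPreprimitive G Ω)
    (hep : ∀ α ω : Ω, IsPreprimitive (stabilizer G α) (orbit (stabilizer G α) ω))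
    (hFT : ∀ T : Subgroup G, Odd (Nat.card T) → Group.IsSolvable T) :
    (∃ N : Subgroup G, N.Normal ∧ N ≠ ⊥ ∧ IsMulCommutative N ∧ ∀ ω : Ω, stabilizer N ω = ⊥) ∨
    (∃ T : Subgroup G, T.Normal ∧ IsSimpleGroup T ∧ ¬ IsMulCommutative T ∧
      Subgroup.centralizer (T : Set G) = ⊥) := by
  classical
  obtain ⟨α, β, hαβ⟩ : ∃ α β : Ω, α ≠ β := by
    haveI : Nontrivial Ω := Fintype.one_lt_card_iff_nontrivial.mp (by omega)
    exact exists_pair_ne Ω
  haveI : Nontrivial G := by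
    obtain ⟨g, hg⟩ := hprim.toIsPretransitive.exists_smul_eq α β
    refine ⟨g, 1, ?_⟩
    rintro rfl
    rw [one_smul] at hg
    exact hαβ hg
  obtain ⟨M, hM⟩ := Cfsg.Agent.Lib.CharSimple.Forward.exists_isMinNormal (G := G)
  haveI hMn := hM.1
  have hMtr : IsPretransitive M Ω := Cfsg.Agent.Lib.Perm.Normal.isPretransitive_of_normal_of_ne_bot hprim M hM.2.1
  have hMt : ∀ ω : Ω, ∃ m ∈ M, m • α = ω := by
    intro ω
    obtain ⟨m, hm⟩ := hMtr.exists_smul_eq α ω
    exact ⟨m, m.2, hm⟩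
  by_cases hMc : ∀ a ∈ M, ∀ b ∈ M, a * b = b * a
  · left
    refine ⟨M, hM.1, hM.2.1, ⟨⟨fun a b => Subtype.ext (hMc a a.2 b b.2)⟩⟩, fun ω => ?_⟩
    rw [eq_bot_iff]
    intro m hm
    rw [Subgroup.mem_bot]
    apply Subtype.ext
    exact Cfsg.Agent.Lib.PermRec.Socle.eq_one_of_centralizes hMtr
      (fun v hv => hMc _ m.2 v hv) (ω := ω) hm
  -- the minimal `M`-invariant subgroup
  have hAdM : Adm M M := ⟨hM.2.1, le_rfl, fun m hm => by
    rw [mem_nz]
    ext a
    rw [mem_cj]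
    constructor
    · intro ha
      have := M.mul_mem (M.mul_mem hm ha) (M.inv_mem hm)
      simpa [mul_assoc] using this
    · intro ha
      exact M.mul_mem (M.mul_mem (M.inv_mem hm) ha) hm⟩
  have hfin : ({S : Subgroup G | Adm M S}).Finite := Set.toFinite _
  obtain ⟨T, hTm⟩ := hfin.exists_minimal ⟨M, hAdM⟩
  have hT : IsMinAdm M T := ⟨hTm.1, fun S hS hle => le_antisymm hle (hTm.2 hS hle)⟩
  have hTs := isSimple hM hT
  have hTna := not_comm hM hT hMc
  by_cases hall : ∀ h : G, h • α = α → cj h T = T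
  · -- `T` is normal, `T = M`
    have hallg : ∀ g : G, cj g T = T := by
      intro g
      obtain ⟨h, hh, e⟩ := exists_stab_conj hM.1 hT.1 α hMt g
      rw [e, hall h hh]
    have hTn : T.Normal := ⟨fun n hn g => by
      have := conj_mem_cj (g := g) hn
      rwa [hallg g] at this⟩
    have hTM : T = M := (hM.2.2 T hTn hT.1.le).resolve_left hT.1.ne
    right
    refine ⟨T, hTn, hTs, ?_, ?_⟩
    · intro hc
      apply hTna
      intro a b
      exact hc.is_comm.comm a b
    · by_contra hC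
      haveI := hTn
      have hCtr : IsPretransitive (Subgroup.centralizer (T : Set G)) Ω :=
        Cfsg.Agent.Lib.Perm.Normal.isPretransitive_of_normal_of_ne_bot hprim _ hC
      refine core α (hep α) T (Subgroup.centralizer (T : Set G)) hTs hTna (by rw [hTM]; exact hMt) ?_ ?_
        (fun h hh => Or.inl (hall h hh)) (hFT T)
      · intro ω
        obtain ⟨c, hc⟩ := hCtr.exists_smul_eq α ω
        exact ⟨c, c.2, hc⟩
      · intro c hc t ht
        exact (Subgroup.mem_centralizer_iff.mp hc t ht).symm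
  · exfalso
    push Not at hall
    obtain ⟨h₀, hh₀, hne⟩ := hall
    by_cases hsr : ∀ m ∈ M, m • α = α → m = 1
    · exact caseA hprim α (hep α) M T hM.1 hT hMt hMc hsr h₀ hh₀ hne
    · push Not at hsr
      obtain ⟨m₀, hm₀, hm₀α, hm₀1⟩ := hsr
      exact caseB hprim α (hep α) M T hM hT hTs hTna (hFT T) hMt m₀ hm₀ hm₀1 hm₀α h₀ hh₀ hne

end caseA

end Cfsg.Agent.Lib.ExtPrim.Main
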